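import Cfsg.Agent.Lib.FusionTheory.OrbitProd
import Cfsg.Agent.Lib.PLocal.Thompson
import Cfsg.Agent.Lib.Fusion.Saturation2
import Cfsg.Agent.Lib.PGroups.Basic

/-!
# A short proof of Glauberman's theorem on the centre of `N(J(S))`, in groups

(helper93)
-/

set_option autoImplicit false
set_option linter.unusedSectionVars false
set_option linter.unusedSimpArgs false

namespace Cfsg.Agent.Lib.FusionTheory.CenterJ

open Subgroup Cfsg Cfsg.Agent.Lib.PLocal.Thompson Cfsg.Agent.Lib.FusionTheory.OrbitProd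

universe u

variable {L : Type u} [Group L] [Finite L] {p : ℕ} [hp : Fact p.Prime]

/-- `U` is a Sylow `p`-subgroup of `H`. -/
def IsSyl (p : ℕ) (H U : Subgroup L) : Prop := U ≤ H ∧ IsPGroup p U ∧ ¬ p ∣ U.relIndex H

theorem IsSyl.mono {H M U : Subgroup L} (h : IsSyl p H U) (hUM : U ≤ M) (hMH : M ≤ H) : IsSyl p M U :=
  ⟨hUM, h.2.1, fun hd => h.2.2 (hd.trans ⟨_, (Subgroup.relIndex_mul_relIndex U M H hUM hMH).symm⟩)⟩

theorem isPGroup_subgroupOf' {R H : Subgroup L} (hR : IsPGroup p R) : IsPGroup p (R.subgroupOf H) :=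
  hR.comap_of_injective H.subtype H.subtype_injective

theorem isSyl_of_max {H W : Subgroup L} (hWH : W ≤ H) (hWp : IsPGroup p W)
    (hmax : ∀ Y : Subgroup L, Y ≤ H → IsPGroup p Y → W ≤ Y → Y ≤ W) : IsSyl p H W := by
  refine ⟨hWH, hWp, ?_⟩
  obtain ⟨P, hP⟩ := (isPGroup_subgroupOf' (H := H) hWp).exists_le_sylow
  have h1 : (P : Subgroup H).map H.subtype ≤ W := by
    refine hmax _ (Subgroup.map_subtype_le _) (P.isPGroup'.map _) ?_
    intro w hw
    exact ⟨⟨w, hWH hw⟩, hP hw, rfl⟩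
  have h2 : W.subgroupOf H = P := by
    refine le_antisymm hP ?_
    intro x hx
    exact h1 ⟨x, hx, rfl⟩
  show ¬ p ∣ (W.subgroupOf H).index
  rw [h2]
  exact P.not_dvd_index

theorem IsSyl.eq_sylow {H U : Subgroup L} (h : IsSyl p H U) {P : Sylow p H} (hP : U.subgroupOf H ≤ P) :
    U.subgroupOf H = P := by
  refine le_antisymm hP ?_
  have h1 : (U.subgroupOf H).relIndex (P : Subgroup H) * (P : Subgroup H).index = (U.subgroupOf H).index :=
    Subgroup.relIndex_mul_index hP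
  obtain ⟨n, hn⟩ := P.isPGroup'.index (((U.subgroupOf H).subgroupOf (P : Subgroup H)))
  have h2 : (U.subgroupOf H).relIndex (P : Subgroup H) = p ^ n := hn
  rcases n with _ | n
  · rw [pow_zero] at h2
    exact Subgroup.relIndex_eq_one.1 h2
  · exfalso
    apply h.2.2
    show p ∣ (U.subgroupOf H).index
    rw [← h1, h2, pow_succ]
    exact Dvd.dvd.mul_right (Dvd.intro_left _ rfl) _

theorem IsSyl.conj_into {H U R : Subgroup L} (h : IsSyl p H U) (hRH : R ≤ H) (hRp : IsPGroup p R) :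
    ∃ g ∈ H, ∀ r ∈ R, g * r * g⁻¹ ∈ U := by
  obtain ⟨P₁, hP₁⟩ := (isPGroup_subgroupOf' (H := H) h.2.1).exists_le_sylow
  obtain ⟨P₂, hP₂⟩ := (isPGroup_subgroupOf' (H := H) hRp).exists_le_sylow
  have e := h.eq_sylow hP₁
  obtain ⟨g, hg⟩ := MulAction.exists_smul_eq H P₂ P₁
  refine ⟨g, g.2, fun r hr => ?_⟩
  have h1 : (⟨r, hRH hr⟩ : H) ∈ (P₂ : Subgroup H) := hP₂ hr
  have h2 : g * ⟨r, hRH hr⟩ * g⁻¹ ∈ ((g • P₂ : Sylow p H) : Subgroup H) := by
    rw [Sylow.coe_subgroup_smul]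
    exact Subgroup.smul_mem_pointwise_smul _ (MulAut.conj g) _ h1
  rw [hg] at h2
  have h3 : g * ⟨r, hRH hr⟩ * g⁻¹ ∈ U.subgroupOf H := by
    rw [e]
    exact h2
  exact h3

theorem IsSyl.le_of_normal {H U R : Subgroup L} (h : IsSyl p H U) (hRH : R ≤ H) (hRp : IsPGroup p R)
    (hRn : H ≤ normalizer (R : Set L)) : R ≤ U := by
  obtain ⟨g, hg, hr⟩ := h.conj_into hRH hRp
  intro x hx
  have h1 : g⁻¹ * x * g⁻¹⁻¹ ∈ R := (mem_normalizer_iff.1 (hRn (H.inv_mem hg)) x).1 hx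
  have h2 := hr _ h1
  have e : g * (g⁻¹ * x * g⁻¹⁻¹) * g⁻¹ = x := by group
  rwa [e] at h2

theorem mem_normalizer_sup {A B : Subgroup L} {s : L} (hA : s ∈ normalizer (A : Set L))
    (hB : s ∈ normalizer (B : Set L)) : s ∈ normalizer ((A ⊔ B : Subgroup L) : Set L) := by
  have hfwd : ∀ {s : L}, s ∈ normalizer (A : Set L) → s ∈ normalizer (B : Set L) →
      A ⊔ B ≤ (A ⊔ B).comap (MulAut.conj s).toMonoidHom := by
    intro s hA hB
    refine sup_le (fun t ht => ?_) (fun c hc => ?_)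
    · exact Subgroup.mem_sup_left ((mem_normalizer_iff.1 hA t).1 ht)
    · exact Subgroup.mem_sup_right ((mem_normalizer_iff.1 hB c).1 hc)
  apply mem_normalizer_iff.2
  intro x
  constructor
  · intro hx
    exact hfwd hA hB hx
  · intro hx
    have := hfwd (Subgroup.inv_mem _ hA) (Subgroup.inv_mem _ hB) hx
    have e : (MulAut.conj s⁻¹).toMonoidHom (s * x * s⁻¹) = x := by
      simp [MulAut.conj_apply]
      group
    rw [Subgroup.mem_comap, e] at this
    exact this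

/-- The largest normal `p`-subgroup of `H`. -/
theorem exists_max_normal {H Q₀ : Subgroup L} (hQ₀H : Q₀ ≤ H) (hQ₀n : H ≤ normalizer (Q₀ : Set L))
    (hQ₀p : IsPGroup p Q₀) :
    ∃ Q₁ : Subgroup L, Q₀ ≤ Q₁ ∧ Q₁ ≤ H ∧ IsPGroup p Q₁ ∧ H ≤ normalizer (Q₁ : Set L) ∧
      ∀ R : Subgroup L, R ≤ H → IsPGroup p R → H ≤ normalizer (R : Set L) → R ≤ Q₁ := by
  let s : Set (Subgroup L) := {R | Q₀ ≤ R ∧ R ≤ H ∧ IsPGroup p R ∧ H ≤ normalizer (R : Set L)}
  obtain ⟨Q₁, ⟨h1, h2, h3, h4⟩, hmax⟩ := Set.exists_max_image s (fun R => Nat.card R) (Set.toFinite s)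
    ⟨Q₀, le_rfl, hQ₀H, hQ₀p, hQ₀n⟩
  refine ⟨Q₁, h1, h2, h3, h4, fun R hRH hRp hRn => ?_⟩
  have hsup : (Q₁ ⊔ R : Subgroup L) ∈ s := by
    refine ⟨h1.trans le_sup_left, sup_le h2 hRH, ?_, fun x hx => mem_normalizer_sup (h4 hx) (hRn hx)⟩
    exact h3.to_sup_of_normal_right' hRp (h2.trans hRn)
  have h5 := hmax _ hsup
  have h6 := Subgroup.eq_of_le_of_card_ge (le_sup_left : Q₁ ≤ Q₁ ⊔ R) h5
  rw [h6]
  exact le_sup_right

theorem map_conj_eq {W : Subgroup L} {g : L} (hg : g ∈ normalizer (W : Set L)) :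
    W.map (MulAut.conj g).toMonoidHom = W := by
  apply le_antisymm
  · rintro _ ⟨x, hx, rfl⟩
    exact (mem_normalizer_iff.1 hg x).1 hx
  · intro x hx
    refine ⟨g⁻¹ * x * g, ?_, by simp [MulAut.conj_apply]; group⟩
    have := (mem_normalizer_iff.1 ((normalizer (W : Set L)).inv_mem hg) x).1 hx
    simpa using this

theorem mem_normalizer_of_map_conj {W : Subgroup L} {g : L} (h : W.map (MulAut.conj g).toMonoidHom = W) :
    g ∈ normalizer (W : Set L) := by
  refine mem_normalizer_iff.2 fun x => ⟨fun hx => ?_, fun hx => ?_⟩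
  · rw [← h]
    exact ⟨x, hx, rfl⟩
  · rw [← h] at hx
    obtain ⟨y, hy, e⟩ := hx
    have e' : g * y * g⁻¹ = g * x * g⁻¹ := e
    have : y = x := by
      have h1 := mul_right_cancel e'
      exact mul_left_cancel h1
    rwa [← this]

theorem mem_normalizer_jOf {W : Subgroup L} {g : L} (hg : g ∈ normalizer (W : Set L)) :
    g ∈ normalizer (jOf 0 W : Set L) := by
  have h := jOf_conj 0 W g
  rw [map_conj_eq hg] at h
  exact mem_normalizer_of_map_conj h

theorem mem_normalizer_of_comm {R : Subgroup L} {z : L} (hz : ∀ r ∈ R, r * z = z * r) :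
    z ∈ normalizer (R : Set L) := by
  refine mem_normalizer_iff.2 fun x => ?_
  have e : ∀ x ∈ R, z * x * z⁻¹ = x := fun x hx => by
    rw [← hz x hx]
    group
  constructor
  · intro hx
    rw [e x hx]
    exact hx
  · intro hx
    have h1 : z⁻¹ * (z * x * z⁻¹) * z = x := by group
    have h2 : ∀ x ∈ R, z⁻¹ * x * z = x := fun x hx => by
      have := e x hx
      calc z⁻¹ * x * z = z⁻¹ * (z * x * z⁻¹) * z := by rw [this]
        _ = x := by group
    rw [← h1]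
    rw [h2 _ hx]
    exact hx

/-- Conjugates of maximal abelian subgroups inside `U`. -/
theorem isMaxIn_conj {U A : Subgroup L} (hA : IsMaxIn 0 U A) (m : L)
    (h : A.map (MulAut.conj m).toMonoidHom ≤ U) : IsMaxIn 0 U (A.map (MulAut.conj m).toMonoidHom) := by
  refine ⟨h, hA.2.1.map _, fun B hB hB' => ?_⟩
  rw [Subgroup.card_map_of_injective (MulAut.conj m).injective]
  exact hA.2.2 B hB hB'

/-- **The reduction.** -/
theorem lt_reduction (Q₀ : Subgroup L) [hQ₀n : Q₀.Normal] (hQ₀p : IsPGroup p Q₀)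
    (E : Subgroup L → L → Prop) (hE : ∀ U U' z, E U z → U' ≤ U → Q₀ ≤ U' → z ∈ U' → E U' z)
    (hstep : ∀ (H U : Subgroup L) (z : L), Q₀ ≤ H → IsSyl p H U → z ∈ U → (∀ u ∈ U, u * z = z * u) → E U z →
      (∀ x ∈ H, x ∈ normalizer (jOf 0 U : Set L) → x * z = z * x) →
      ∀ Q₁ : Subgroup L, Q₀ ≤ Q₁ → Q₁ ≤ U → IsPGroup p Q₁ → H ≤ normalizer (Q₁ : Set L) →
      (∃ A, IsMaxIn 0 U A ∧ ¬ A ≤ Q₁) →
      (∀ A, IsMaxIn 0 U A → ¬ A ≤ Q₁ → ∀ g ∈ H, (∀ a ∈ A, a * (g * z * g⁻¹) = (g * z * g⁻¹) * a) →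
        g * z * g⁻¹ = z) →
      ∀ x ∈ H, x * z = z * x) :
    ∀ (n : ℕ) (H U : Subgroup L) (z : L), Nat.card H = n → Q₀ ≤ H → IsSyl p H U → z ∈ U →
      (∀ u ∈ U, u * z = z * u) → E U z →
      (∀ x ∈ H, x ∈ normalizer (jOf 0 U : Set L) → x * z = z * x) → ∀ x ∈ H, x * z = z * x := by
  intro n
  induction n using Nat.strong_induction_on with
  | _ n ih =>
  intro H U z hn hQ₀H hSyl hzU hzc hEz hJ
  by_contra hcon
  push Not at hcon
  obtain ⟨x₀, hx₀, hx₀z⟩ := hcon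
  have hUH : U ≤ H := hSyl.1
  have hUp : IsPGroup p U := hSyl.2.1
  have hQ₀N : H ≤ normalizer (Q₀ : Set L) := fun x _ => by
    rw [normalizer_eq_top]
    trivial
  have hQ₀U : Q₀ ≤ U := hSyl.le_of_normal hQ₀H hQ₀p hQ₀N
  obtain ⟨Q₁, hQ₀₁, hQ₁H, hQ₁p, hQ₁n, hQ₁max⟩ := exists_max_normal hQ₀H hQ₀N hQ₀p
  have hQ₁U : Q₁ ≤ U := hSyl.le_of_normal hQ₁H hQ₁p hQ₁n
  -- the subgroup `M = C_H(z)`
  obtain ⟨M, hM⟩ : ∃ M : Subgroup L, M = H ⊓ centralizer ({z} : Set L) := ⟨_, rfl⟩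
  have hMmem : ∀ x, x ∈ M ↔ x ∈ H ∧ x * z = z * x := by
    intro x
    rw [hM, Subgroup.mem_inf, Subgroup.mem_centralizer_singleton_iff]
  have hUM : U ≤ M := fun u hu => (hMmem u).2 ⟨hUH hu, hzc u hu⟩
  have hMH : M ≤ H := fun x hx => ((hMmem x).1 hx).1
  have hSylM : IsSyl p M U := hSyl.mono hUM hMH
  -- step 1
  have h1 : ∃ A, IsMaxIn 0 U A ∧ ¬ A ≤ Q₁ := by
    by_contra hno
    push Not at hno
    have h2 : jOf 0 U ≤ Q₁ := sSup_le (fun A hA => hno A hA)
    have h3 : jOf 0 Q₁ = jOf 0 U := jOf_eq_of_le hQ₁U h2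
    have h4 : x₀ ∈ normalizer (jOf 0 U : Set L) := by
      rw [← h3]
      exact mem_normalizer_jOf (hQ₁n hx₀)
    exact hx₀z (hJ x₀ hx₀ h4)
  -- step 2
  let X : Subgroup L → Prop := fun R => Q₁ ≤ R ∧ R ≤ U ∧ (∃ A, IsMaxIn 0 U A ∧ A ≤ R ∧ ¬ A ≤ Q₁) ∧
    ∃ x ∈ H, x ∈ normalizer (R : Set L) ∧ x * z ≠ z * x
  have h2 : ∀ R, ¬ X R := by
    intro R₀ hR₀
    obtain ⟨R, hR, hRmax⟩ := Set.exists_max_image {R | X R} (fun R => Nat.card (U ⊓ normalizer (R : Set L) : Subgroup L))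
      (Set.toFinite _) ⟨R₀, hR₀⟩
    obtain ⟨hQ₁R, hRU, ⟨A, hA, hAR, hAQ⟩, x₁, hx₁, hx₁N, hx₁z⟩ := hR
    obtain ⟨W, hW⟩ : ∃ W : Subgroup L, W = U ⊓ normalizer (R : Set L) := ⟨_, rfl⟩
    have hWU : W ≤ U := hW ▸ inf_le_left
    have hWN : W ≤ normalizer (R : Set L) := hW ▸ inf_le_right
    have hRW : R ≤ W := by
      rw [hW]
      exact le_inf hRU Subgroup.le_normalizer
    have hQ₀W : Q₀ ≤ W := (hQ₀₁.trans hQ₁R).trans hRW
    have hWp : IsPGroup p W := hUp.to_le hWU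
    have hzW : z ∈ W := by
      rw [hW]
      exact ⟨hzU, mem_normalizer_of_comm (fun r hr => hzc r (hRU hr))⟩
    have hRmax' : ∀ R', X R' → Nat.card (U ⊓ normalizer (R' : Set L) : Subgroup L) ≤ Nat.card W := by
      intro R' hR'
      rw [hW]
      exact hRmax R' hR'
    have hAJ : ∀ A', IsMaxIn 0 U A' → A' ≤ W → A' ≤ jOf 0 W := fun A' hA' hA'W => (hA'.of_le hWU hA'W).le_jOf
    -- the normalizer of `J(W)` centralizes `z`
    have hJW : ∀ x ∈ H, x ∈ normalizer (jOf 0 W : Set L) → x * z = z * x := by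
      intro x hx hxN
      by_cases hWe : W = U
      · rw [hWe] at hxN
        exact hJ x hx hxN
      have hWlt : W < U := lt_of_le_of_ne hWU hWe
      have hlt := Cfsg.Agent.Lib.Fusion.Saturation2.lt_normalizerIn hUp hWlt
      by_contra hxz
      have hX3 : X (jOf 0 W ⊔ Q₁) := by
        refine ⟨le_sup_right, sup_le ((jOf_le 0 W).trans hWU) hQ₁U, ⟨A, hA, ?_, hAQ⟩, x, hx,
          mem_normalizer_sup hxN (hQ₁n hx), hxz⟩
        exact (hAJ A hA (hAR.trans hRW)).trans le_sup_left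
      have h3 := hRmax' _ hX3
      have h4 : Cfsg.FusionSystem.normalizerIn U W ≤ U ⊓ normalizer ((jOf 0 W ⊔ Q₁ : Subgroup L) : Set L) := by
        intro u hu
        exact ⟨hu.1, mem_normalizer_sup (mem_normalizer_jOf hu.2) (hQ₁n (hUH hu.1))⟩
      have h5 : Nat.card W < Nat.card (Cfsg.FusionSystem.normalizerIn U W) :=
        Cfsg.Agent.Lib.PGroups.Basic.card_lt_of_lt hlt
      have h6 := Subgroup.card_le_of_le h4
      omega
    obtain ⟨HR, hHR⟩ : ∃ HR : Subgroup L, HR = H ⊓ normalizer (R : Set L) := ⟨_, rfl⟩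
    have hHRH : HR ≤ H := hHR ▸ inf_le_left
    have hHRN : HR ≤ normalizer (R : Set L) := hHR ▸ inf_le_right
    have hWHR : W ≤ HR := by
      rw [hHR]
      exact le_inf (hWU.trans hUH) hWN
    have hSylHR : IsSyl p HR W := by
      refine isSyl_of_max hWHR hWp (fun Y hY hYp hWY => ?_)
      by_contra hYW
      have hlt : W < Y := lt_of_le_of_ne hWY (fun e => hYW e.ge)
      have hltY := Cfsg.Agent.Lib.Fusion.Saturation2.lt_normalizerIn hYp hlt
      obtain ⟨Y₁, hY₁⟩ : ∃ Y₁ : Subgroup L, Y₁ = Cfsg.FusionSystem.normalizerIn Y W := ⟨_, rfl⟩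
      rw [← hY₁] at hltY
      have hY₁Y : Y₁ ≤ Y := hY₁ ▸ inf_le_left
      have hY₁N : Y₁ ≤ normalizer (W : Set L) := hY₁ ▸ inf_le_right
      have hY₁M : Y₁ ≤ M := by
        intro y hy
        have hyH : y ∈ H := hHRH (hY (hY₁Y hy))
        exact (hMmem y).2 ⟨hyH, hJW y hyH (mem_normalizer_jOf (hY₁N hy))⟩
      obtain ⟨m, hm, hmU⟩ := hSylM.conj_into hY₁M (hYp.to_le hY₁Y)
      have hmH := hMH hm
      have hmz := ((hMmem m).1 hm).2
      have hzm : m * z * m⁻¹ = z := by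
        rw [hmz]
        group
      have hR'U : R.map (MulAut.conj m).toMonoidHom ≤ U := by
        rintro _ ⟨r, hr, rfl⟩
        exact hmU r (hltY.le (hRW hr))
      have hX' : X (R.map (MulAut.conj m).toMonoidHom) := by
        refine ⟨?_, hR'U, ⟨A.map (MulAut.conj m).toMonoidHom, isMaxIn_conj hA m ((Subgroup.map_mono hAR).trans hR'U),
          Subgroup.map_mono hAR, ?_⟩, m * x₁ * m⁻¹, H.mul_mem (H.mul_mem hmH hx₁) (H.inv_mem hmH), ?_, ?_⟩
        · intro q hq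
          refine ⟨m⁻¹ * q * m, hQ₁R ?_, by simp [MulAut.conj_apply]; group⟩
          have := (mem_normalizer_iff.1 (hQ₁n (H.inv_mem hmH)) q).1 hq
          simpa using this
        · intro hle
          apply hAQ
          intro a ha
          have h3 : m * a * m⁻¹ ∈ Q₁ := hle ⟨a, ha, rfl⟩
          have h4 := (mem_normalizer_iff.1 (hQ₁n (H.inv_mem hmH)) _).1 h3
          have e : m⁻¹ * (m * a * m⁻¹) * m⁻¹⁻¹ = a := by group
          rwa [e] at h4
        · refine mem_normalizer_iff.2 fun y => ?_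
          constructor
          · rintro ⟨r, hr, rfl⟩
            refine ⟨x₁ * r * x₁⁻¹, (mem_normalizer_iff.1 hx₁N r).1 hr, ?_⟩
            simp [MulAut.conj_apply]
            group
          · rintro ⟨r, hr, hre⟩
            have hre' : m * r * m⁻¹ = m * x₁ * m⁻¹ * y * (m * x₁ * m⁻¹)⁻¹ := hre
            refine ⟨x₁⁻¹ * r * x₁, ?_, ?_⟩
            · have := (mem_normalizer_iff.1 ((normalizer (R : Set L)).inv_mem hx₁N) r).1 hr
              simpa using this
            · show m * (x₁⁻¹ * r * x₁) * m⁻¹ = y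
              have e1 : r = m⁻¹ * (m * x₁ * m⁻¹ * y * (m * x₁ * m⁻¹)⁻¹) * m := by
                rw [← hre']
                group
              rw [e1]
              group
        · intro h3
          apply hx₁z
          have h4 : m * x₁ * m⁻¹ * z = m * (x₁ * z) * m⁻¹ := by
            calc m * x₁ * m⁻¹ * z = m * x₁ * (m⁻¹ * z * m) * m⁻¹ := by group
              _ = m * x₁ * z * m⁻¹ := by
                have : m⁻¹ * z * m = z := by
                  calc m⁻¹ * z * m = m⁻¹ * (z * m) := by group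
                    _ = m⁻¹ * (m * z) := by rw [hmz]
                    _ = z := by group
                rw [this]
              _ = _ := by group
          have h5 : z * (m * x₁ * m⁻¹) = m * (z * x₁) * m⁻¹ := by
            calc z * (m * x₁ * m⁻¹) = (z * m) * x₁ * m⁻¹ := by group
              _ = (m * z) * x₁ * m⁻¹ := by rw [hmz]
              _ = _ := by group
          rw [h4, h5] at h3
          have h6 := mul_right_cancel h3
          exact mul_left_cancel h6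
      have h3 := hRmax' _ hX'
      have h4 : Y₁.map (MulAut.conj m).toMonoidHom ≤
          U ⊓ normalizer ((R.map (MulAut.conj m).toMonoidHom : Subgroup L) : Set L) := by
        rintro _ ⟨y, hy, rfl⟩
        refine ⟨hmU y hy, mem_normalizer_iff.2 fun t => ?_⟩
        have hyN : y ∈ normalizer (R : Set L) := hHRN (hY (hY₁Y hy))
        constructor
        · rintro ⟨r, hr, rfl⟩
          refine ⟨y * r * y⁻¹, (mem_normalizer_iff.1 hyN r).1 hr, ?_⟩
          simp [MulAut.conj_apply]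
          group
        · rintro ⟨r, hr, hre⟩
          have hre' : m * r * m⁻¹ = (MulAut.conj m).toMonoidHom y * t * ((MulAut.conj m).toMonoidHom y)⁻¹ := hre
          have hre2 : m * r * m⁻¹ = m * y * m⁻¹ * t * (m * y * m⁻¹)⁻¹ := by
            simpa [MulAut.conj_apply] using hre'
          refine ⟨y⁻¹ * r * y, ?_, ?_⟩
          · have := (mem_normalizer_iff.1 ((normalizer (R : Set L)).inv_mem hyN) r).1 hr
            simpa using this
          · show m * (y⁻¹ * r * y) * m⁻¹ = t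
            have e1 : r = m⁻¹ * (m * y * m⁻¹ * t * (m * y * m⁻¹)⁻¹) * m := by
              rw [← hre2]
              group
            rw [e1]
            group
      have h5 := Subgroup.card_le_of_le h4
      rw [Subgroup.card_map_of_injective (MulAut.conj m).injective] at h5
      have h6 := Cfsg.Agent.Lib.PGroups.Basic.card_lt_of_lt hltY
      omega
    have hlt : Nat.card HR < n := by
      rw [← hn]
      refine Cfsg.Agent.Lib.PGroups.Basic.card_lt_of_lt (lt_of_le_of_ne hHRH fun e => ?_)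
      have hHN : H ≤ normalizer (R : Set L) := by
        rw [← e]
        exact hHRN
      exact hAQ (hAR.trans (hQ₁max R (hRU.trans hUH) (hUp.to_le hRU) hHN))
    have h3 := ih _ hlt HR W z rfl (hQ₀W.trans hWHR) hSylHR hzW (fun u hu => hzc u (hWU hu))
      (hE U W z hEz hWU hQ₀W hzW) (fun x hx hxN => hJW x (hHRH hx) hxN)
    refine hx₁z (h3 x₁ ?_)
    rw [hHR]
    exact ⟨hx₁, hx₁N⟩
  -- step 3
  have h3 : ∀ A, IsMaxIn 0 U A → ¬ A ≤ Q₁ → ∀ g ∈ H, (∀ a ∈ A, a * (g * z * g⁻¹) = (g * z * g⁻¹) * a) →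
      g * z * g⁻¹ = z := by
    intro A hA hAQ g hg hAc
    by_contra hδ
    obtain ⟨δ, hδdef⟩ : ∃ δ, δ = g * z * g⁻¹ := ⟨_, rfl⟩
    rw [← hδdef] at hδ hAc
    -- `Q₁` centralizes `δ`
    have hQδ : ∀ q ∈ Q₁, q * δ = δ * q := by
      intro q hq
      have h4 : g⁻¹ * q * g⁻¹⁻¹ ∈ Q₁ := (mem_normalizer_iff.1 (hQ₁n (H.inv_mem hg)) q).1 hq
      have h5 := hzc _ (hQ₁U h4)
      rw [hδdef]
      calc q * (g * z * g⁻¹) = g * ((g⁻¹ * q * g⁻¹⁻¹) * z) * g⁻¹ := by group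
        _ = g * (z * (g⁻¹ * q * g⁻¹⁻¹)) * g⁻¹ := by rw [h5]
        _ = _ := by group
    obtain ⟨C₁, hC₁⟩ : ∃ C₁ : Subgroup L, C₁ = U ⊓ centralizer ({δ} : Set L) := ⟨_, rfl⟩
    have hC₁mem : ∀ x, x ∈ C₁ ↔ x ∈ U ∧ x * δ = δ * x := by
      intro x
      rw [hC₁, Subgroup.mem_inf, Subgroup.mem_centralizer_singleton_iff]
    have hC₁U : C₁ ≤ U := fun x hx => ((hC₁mem x).1 hx).1
    have hQC : Q₁ ≤ C₁ := fun q hq => (hC₁mem q).2 ⟨hQ₁U hq, hQδ q hq⟩
    have hAC : A ≤ C₁ := fun a ha => (hC₁mem a).2 ⟨hA.1 ha, hAc a ha⟩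
    -- conjugate `C₁` into `U`
    have hgM : C₁.map (MulAut.conj g⁻¹).toMonoidHom ≤ M := by
      rintro _ ⟨c, hc, rfl⟩
      obtain ⟨hcU, hcδ⟩ := (hC₁mem c).1 hc
      refine (hMmem _).2 ⟨H.mul_mem (H.mul_mem (H.inv_mem hg) (hUH hcU)) (H.inv_mem (H.inv_mem hg)), ?_⟩
      rw [hδdef] at hcδ
      show (MulAut.conj g⁻¹) c * z = z * (MulAut.conj g⁻¹) c
      rw [MulAut.conj_apply, inv_inv]
      calc g⁻¹ * c * g * z = g⁻¹ * (c * (g * z * g⁻¹)) * g := by group
        _ = g⁻¹ * ((g * z * g⁻¹) * c) * g := by rw [hcδ]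
        _ = _ := by group
    obtain ⟨m, hm, hmU⟩ := hSylM.conj_into hgM ((hUp.to_le hC₁U).map _)
    have hmH := hMH hm
    have hmz := ((hMmem m).1 hm).2
    obtain ⟨h, hh⟩ : ∃ h, h = m * g⁻¹ := ⟨_, rfl⟩
    have hhH : h ∈ H := by
      rw [hh]
      exact H.mul_mem hmH (H.inv_mem hg)
    have hhδ : h * δ * h⁻¹ = z := by
      rw [hh, hδdef]
      calc m * g⁻¹ * (g * z * g⁻¹) * (m * g⁻¹)⁻¹ = m * z * m⁻¹ := by group
        _ = z * m * m⁻¹ := by rw [hmz]
        _ = z := by group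
    have hhC : ∀ c ∈ C₁, h * c * h⁻¹ ∈ U := by
      intro c hc
      have h4 := hmU _ ⟨c, hc, rfl⟩
      have h5 : (MulAut.conj g⁻¹).toMonoidHom c = g⁻¹ * c * g := by
        simp [MulAut.conj_apply]
      rw [h5] at h4
      rw [hh]
      have e : m * g⁻¹ * c * (m * g⁻¹)⁻¹ = m * (g⁻¹ * c * g) * m⁻¹ := by group
      rw [e]
      exact h4
    have hhi : ∀ q ∈ Q₁, h⁻¹ * q * h ∈ Q₁ := by
      intro q hq
      have := (mem_normalizer_iff.1 (hQ₁n (H.inv_mem hhH)) q).1 hq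
      simpa using this
    obtain ⟨C₂, hC₂⟩ : ∃ C₂ : Subgroup L, C₂ = C₁.map (MulAut.conj h).toMonoidHom := ⟨_, rfl⟩
    have hC₂U : C₂ ≤ U := by
      rw [hC₂]
      rintro _ ⟨c, hc, rfl⟩
      exact hhC c hc
    have hconjv : ∀ x, (MulAut.conj h).toMonoidHom x = h * x * h⁻¹ := fun x => rfl
    by_cases hC₁e : C₁ = U
    · -- `δ` is central in `U`
      have hUN : h ∈ normalizer (U : Set L) := by
        refine mem_normalizer_of_map_conj ?_
        refine Subgroup.eq_of_le_of_card_ge ?_ ?_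
        · rintro _ ⟨u, hu, rfl⟩
          rw [← hC₁e] at hu
          exact hhC u hu
        · rw [Subgroup.card_map_of_injective (MulAut.conj h).injective]
      have h4 := hJ h hhH (mem_normalizer_jOf hUN)
      apply hδ
      have h5 : h * δ = h * z := by
        rw [h4, ← hhδ] 
        group
      exact mul_left_cancel h5
    · have hC₁lt : C₁ < U := lt_of_le_of_ne hC₁U hC₁e
      obtain ⟨t, ht1, ht2⟩ := SetLike.exists_of_lt (Cfsg.Agent.Lib.Fusion.Saturation2.lt_normalizerIn hUp hC₁lt)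
      have htU : t ∈ U := ht1.1
      have htN : t ∈ normalizer (C₁ : Set L) := ht1.2
      have hX : X C₂ := by
        refine ⟨?_, hC₂U, ⟨A.map (MulAut.conj h).toMonoidHom, isMaxIn_conj hA h ?_, ?_, ?_⟩, h * t * h⁻¹,
          H.mul_mem (H.mul_mem hhH (hUH htU)) (H.inv_mem hhH), ?_, ?_⟩
        · intro q hq
          rw [hC₂]
          refine ⟨h⁻¹ * q * h, hQC (hhi q hq), ?_⟩
          rw [hconjv]
          group
        · rintro _ ⟨a, ha, rfl⟩
          exact hhC a (hAC ha)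
        · rw [hC₂]
          exact Subgroup.map_mono hAC
        · intro hle
          apply hAQ
          intro a ha
          have h4 : h * a * h⁻¹ ∈ Q₁ := hle ⟨a, ha, rfl⟩
          have h5 := hhi _ h4
          have e : h⁻¹ * (h * a * h⁻¹) * h = a := by group
          rwa [e] at h5
        · rw [hC₂]
          refine mem_normalizer_iff.2 fun y => ?_
          constructor
          · rintro ⟨c, hc, rfl⟩
            refine ⟨t * c * t⁻¹, (mem_normalizer_iff.1 htN c).1 hc, ?_⟩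
            rw [hconjv, hconjv]
            group
          · rintro ⟨c, hc, hce⟩
            rw [hconjv] at hce
            refine ⟨t⁻¹ * c * t, ?_, ?_⟩
            · have := (mem_normalizer_iff.1 ((normalizer (C₁ : Set L)).inv_mem htN) c).1 hc
              simpa using this
            · rw [hconjv]
              have e1 : c = h⁻¹ * (h * t * h⁻¹ * y * (h * t * h⁻¹)⁻¹) * h := by
                rw [← hce]
                group
              rw [e1]
              group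
        · intro h4
          -- `t` fixes `δ`
          apply ht2
          refine (hC₁mem t).2 ⟨htU, ?_⟩
          have h5 : h * t * h⁻¹ * (h * δ * h⁻¹) = (h * δ * h⁻¹) * (h * t * h⁻¹) := by
            rw [hhδ]
            exact h4
          have h6 : h * (t * δ) * h⁻¹ = h * (δ * t) * h⁻¹ := by
            calc h * (t * δ) * h⁻¹ = h * t * h⁻¹ * (h * δ * h⁻¹) := by group
              _ = (h * δ * h⁻¹) * (h * t * h⁻¹) := h5
              _ = _ := by group
          exact mul_left_cancel (mul_right_cancel h6)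
      exact h2 _ hX
  exact hx₀z (hstep H U z hQ₀H hSyl hzU hzc hEz hJ Q₁ hQ₀₁ hQ₁U hQ₁p hQ₁n h1 h3 x₀ hx₀)

section count

/-- Orbit--stabilizer, in the form we use. -/
theorem card_range_mul {β : Type*} {A B : Subgroup L} (hBA : B ≤ A) (g : A → β)
    (hg : ∀ a a' : A, g a = g a' ↔ (a : L)⁻¹ * a' ∈ B) : Nat.card (Set.range g) * Nat.card B = Nat.card A := by
  have h1 := Subgroup.card_eq_card_quotient_mul_card_subgroup (B.subgroupOf A)
  have h2 : Nat.card (B.subgroupOf A) = Nat.card B := Nat.card_congr (Subgroup.subgroupOfEquivOfLe hBA).toEquiv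
  rw [h2] at h1
  rw [h1]
  congr 1
  let q : A ⧸ B.subgroupOf A → β := Quotient.lift g (by
    intro a b hab
    have h3 : a⁻¹ * b ∈ B.subgroupOf A := QuotientGroup.leftRel_apply.1 hab
    exact (hg a b).2 h3)
  have hq : ∀ a : A, q (a : A ⧸ B.subgroupOf A) = g a := fun _ => rfl
  have hinj : Function.Injective q := by
    intro a b
    induction a using QuotientGroup.induction_on with
    | H a =>
      induction b using QuotientGroup.induction_on with
      | H b =>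
        intro h
        rw [hq, hq] at h
        exact QuotientGroup.eq.2 ((hg a b).1 h)
  have hr : Set.range q = Set.range g := by
    ext y
    constructor
    · rintro ⟨a, rfl⟩
      induction a using QuotientGroup.induction_on with
      | H a => exact ⟨a, rfl⟩
    · rintro ⟨a, rfl⟩
      exact ⟨(a : A ⧸ B.subgroupOf A), rfl⟩
  rw [← hr]
  exact (Nat.card_congr (Equiv.ofInjective q hinj)).symm

/-- **The counting lemma.** -/
theorem stab_of_max {U A Y : Subgroup L} (hA : IsMaxIn 0 U A) (hYU : Y ≤ U)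
    (hYc : ∀ a ∈ Y, ∀ b ∈ Y, a * b = b * a) (hAY : ∀ a ∈ A, ∀ y ∈ Y, a * y * a⁻¹ ∈ Y) {x : L} (hxY : x ∈ Y)
    (hx : ∃ a ∈ A, a * x * a⁻¹ ≠ x) :
    ∃ a ∈ A, a * x * a⁻¹ ≠ x ∧ ∀ b ∈ A, b * (x⁻¹ * (a * x * a⁻¹)) * b⁻¹ = x⁻¹ * (a * x * a⁻¹) := by
  by_contra hno
  push Not at hno
  have hAc : ∀ a ∈ A, ∀ b ∈ A, a * b = b * a := fun a ha b hb => hA.2.1.comm ha hb
  obtain ⟨B, hB⟩ : ∃ B : Subgroup L, B = A ⊓ centralizer ({x} : Set L) := ⟨_, rfl⟩
  have hBmem : ∀ b, b ∈ B ↔ b ∈ A ∧ b * x = x * b := by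
    intro b
    rw [hB, Subgroup.mem_inf, Subgroup.mem_centralizer_singleton_iff]
  have hBA : B ≤ A := fun b hb => ((hBmem b).1 hb).1
  obtain ⟨X, hX⟩ : ∃ X : Subgroup L, X = closure {y | ∃ a ∈ A, y = a * x * a⁻¹} := ⟨_, rfl⟩
  have hOX : ∀ a ∈ A, a * x * a⁻¹ ∈ X := fun a ha => by
    rw [hX]
    exact subset_closure ⟨a, ha, rfl⟩
  have hXY : X ≤ Y := by
    rw [hX, closure_le]
    rintro _ ⟨a, ha, rfl⟩
    exact hAY a ha x hxY
  have hBX : ∀ b ∈ B, ∀ y ∈ X, b * y = y * b := by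
    intro b hb y hy
    have h1 : X ≤ centralizer ({b} : Set L) := by
      rw [hX, closure_le]
      rintro _ ⟨a, ha, rfl⟩
      obtain ⟨hbA, hbx⟩ := (hBmem b).1 hb
      refine (Subgroup.mem_centralizer_singleton_iff).2 ?_
      have e := hAc a ha b hbA
      calc a * x * a⁻¹ * b = a * x * (a⁻¹ * b) := by group
        _ = a * x * (b * a⁻¹) := by
          have : a⁻¹ * b = b * a⁻¹ := by
            calc a⁻¹ * b = a⁻¹ * (b * a) * a⁻¹ := by group
              _ = a⁻¹ * (a * b) * a⁻¹ := by rw [e]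
              _ = b * a⁻¹ := by group
          rw [this]
        _ = a * (x * b) * a⁻¹ := by group
        _ = a * (b * x) * a⁻¹ := by rw [hbx]
        _ = (a * b) * x * a⁻¹ := by group
        _ = (b * a) * x * a⁻¹ := by rw [e]
        _ = b * (a * x * a⁻¹) := by group
    exact ((Subgroup.mem_centralizer_singleton_iff).1 (h1 hy)).symm
  obtain ⟨D, hD⟩ : ∃ D : Subgroup L, D = B ⊔ X := ⟨_, rfl⟩
  have hBD : B ≤ D := hD ▸ le_sup_left
  have hXD : X ≤ D := hD ▸ le_sup_right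
  have hDab : IsAbExp 0 D := by
    rw [hD]
    refine IsAbExp.sup (hA.2.1.mono hBA) ?_ hBX
    rw [isAbExp_iff]
    exact ⟨fun a ha b hb => hYc a (hXY ha) b (hXY hb), by simp⟩
  have hDU : D ≤ U := by
    rw [hD]
    exact sup_le (hBA.trans hA.1) (hXY.trans hYU)
  have hDcard := hA.2.2 D hDU hDab
  have hmemD : ∀ a : A, (a : L) * x * (a : L)⁻¹ ∈ D := fun a => hXD (hOX a a.2)
  let g : A → ↥D ⧸ B.subgroupOf D := fun a => ((⟨(a : L) * x * (a : L)⁻¹, hmemD a⟩ : D) : ↥D ⧸ B.subgroupOf D)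
  have hg : ∀ a a' : A, g a = g a' ↔ (a : L)⁻¹ * a' ∈ B := by
    intro a a'
    constructor
    · intro h
      have h1 : ((⟨(a : L) * x * (a : L)⁻¹, hmemD a⟩ : D))⁻¹ * (⟨(a' : L) * x * (a' : L)⁻¹, hmemD a'⟩ : D) ∈
          B.subgroupOf D := QuotientGroup.eq.1 h
      have h2 : ((a : L) * x * (a : L)⁻¹)⁻¹ * ((a' : L) * x * (a' : L)⁻¹) ∈ B := h1
      by_cases hfix : ((a : L)⁻¹ * a') * x * ((a : L)⁻¹ * a')⁻¹ = x
      · refine (hBmem _).2 ⟨A.mul_mem (A.inv_mem a.2) a'.2, ?_⟩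
        calc ((a : L)⁻¹ * a') * x = ((a : L)⁻¹ * a') * x * ((a : L)⁻¹ * a')⁻¹ * ((a : L)⁻¹ * a') := by group
          _ = _ := by rw [hfix]
      · exfalso
        obtain ⟨b, hb, hbne⟩ := hno _ (A.mul_mem (A.inv_mem a.2) a'.2) hfix
        apply hbne
        have h3 : x⁻¹ * (((a : L)⁻¹ * a') * x * ((a : L)⁻¹ * a')⁻¹) =
            (a : L)⁻¹ * (((a : L) * x * (a : L)⁻¹)⁻¹ * ((a' : L) * x * (a' : L)⁻¹)) * a := by group
        rw [h3]
        have h4 : (a : L)⁻¹ * (((a : L) * x * (a : L)⁻¹)⁻¹ * ((a' : L) * x * (a' : L)⁻¹)) * a ∈ A :=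
          A.mul_mem (A.mul_mem (A.inv_mem a.2) (hBA h2)) a.2
        rw [hAc b hb _ h4]
        group
    · intro h
      obtain ⟨-, h1⟩ := (hBmem _).1 h
      refine QuotientGroup.eq.2 ?_
      show ((a : L) * x * (a : L)⁻¹)⁻¹ * ((a' : L) * x * (a' : L)⁻¹) ∈ B
      have h2 : (a' : L) * x * (a' : L)⁻¹ = (a : L) * x * (a : L)⁻¹ := by
        have e1 : (a' : L) = a * ((a : L)⁻¹ * a') := by group
        calc (a' : L) * x * (a' : L)⁻¹ = a * (((a : L)⁻¹ * a') * x) * (a' : L)⁻¹ := by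
              conv_lhs => rw [e1]
              group
          _ = a * (x * ((a : L)⁻¹ * a')) * (a' : L)⁻¹ := by rw [h1]
          _ = _ := by group
      rw [h2, inv_mul_cancel]
      exact B.one_mem
  have hne1 : ∀ a : A, g a ≠ (((1 : D) : ↥D ⧸ B.subgroupOf D)) := by
    intro a h
    have h1 : ((⟨(a : L) * x * (a : L)⁻¹, hmemD a⟩ : D))⁻¹ * (1 : D) ∈ B.subgroupOf D := QuotientGroup.eq.1 h
    have h2 : (a : L) * x * (a : L)⁻¹ ∈ B := by
      have h2' : ((a : L) * x * (a : L)⁻¹)⁻¹ * 1 ∈ B := h1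
      have h3' := B.inv_mem h2'
      simpa using h3'
    have h3 : x ∈ A := by
      have h4 := A.mul_mem (A.mul_mem (A.inv_mem a.2) (hBA h2)) a.2
      have e : (a : L)⁻¹ * ((a : L) * x * (a : L)⁻¹) * a = x := by group
      rwa [e] at h4
    obtain ⟨a₀, ha₀, hne⟩ := hx
    apply hne
    rw [hAc a₀ ha₀ x h3]
    group
  have h1 := card_range_mul hBA g hg
  have h2 := Subgroup.card_eq_card_quotient_mul_card_subgroup (B.subgroupOf D)
  have h3 : Nat.card (B.subgroupOf D) = Nat.card B := Nat.card_congr (Subgroup.subgroupOfEquivOfLe hBD).toEquiv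
  rw [h3] at h2
  have h4 : Nat.card (Set.range g) < Nat.card (↥D ⧸ B.subgroupOf D) := by
    rw [Nat.card_coe_set_eq, ← Set.ncard_univ]
    refine Set.ncard_lt_ncard ?_ (Set.toFinite _)
    refine Set.ssubset_univ_iff.2 fun h => ?_
    have h5 : (((1 : D) : ↥D ⧸ B.subgroupOf D)) ∈ Set.range g := by
      rw [h]
      trivial
    obtain ⟨a, ha⟩ := h5
    exact hne1 a ha
  have hBpos : 0 < Nat.card B := Nat.card_pos
  have h5 : (Nat.card (Set.range g) + 1) * Nat.card B ≤ Nat.card (↥D ⧸ B.subgroupOf D) * Nat.card B :=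
    Nat.mul_le_mul_right _ h4
  rw [← h2, add_mul, h1] at h5
  omega

end count

section modes

variable (Q₀ : Subgroup L) [hQ₀n : Q₀.Normal] (hQ₀p : IsPGroup p Q₀) (hQ₀c : centralizer (Q₀ : Set L) ≤ Q₀)

/-- The centre of `Q`, in `L`. -/
def YY (Q : Subgroup L) : Subgroup L := Q ⊓ centralizer (Q : Set L)

instance (Q : Subgroup L) : CommGroup (YY Q) :=
  { (inferInstance : Group (YY Q)) with
    mul_comm := fun a b => Subtype.ext (Subgroup.mem_centralizer_iff.1 b.2.2 a a.2.1) }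

theorem normalizer_le_YY {H Q : Subgroup L} (hn : H ≤ normalizer (Q : Set L)) : H ≤ normalizer (YY Q : Set L) := by
  intro g hg
  have hfw : ∀ g ∈ H, ∀ y ∈ YY Q, g * y * g⁻¹ ∈ YY Q := by
    intro g hg y hy
    refine ⟨(mem_normalizer_iff.1 (hn hg) y).1 hy.1, Subgroup.mem_centralizer_iff.2 fun q hq => ?_⟩
    have h1 : g⁻¹ * q * g⁻¹⁻¹ ∈ Q := (mem_normalizer_iff.1 (hn (H.inv_mem hg)) q).1 hq
    have h2 := Subgroup.mem_centralizer_iff.1 hy.2 _ h1
    calc q * (g * y * g⁻¹) = g * ((g⁻¹ * q * g⁻¹⁻¹) * y) * g⁻¹ := by group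
      _ = g * (y * (g⁻¹ * q * g⁻¹⁻¹)) * g⁻¹ := by rw [h2]
      _ = _ := by group
  refine mem_normalizer_iff.2 fun y => ⟨fun hy => hfw g hg y hy, fun hy => ?_⟩
  have h1 := hfw g⁻¹ (H.inv_mem hg) _ hy
  have e : g⁻¹ * (g * y * g⁻¹) * g⁻¹⁻¹ = y := by group
  rwa [e] at h1

/-- Conjugation on the centre. -/
noncomputable def rhoY (H Q : Subgroup L) (hn : H ≤ normalizer (Q : Set L)) : H →* MulAut (YY Q) :=
  (YY Q).normalizerMonoidHom.comp (Subgroup.inclusion (normalizer_le_YY hn))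

theorem rhoY_apply {H Q : Subgroup L} (hn : H ≤ normalizer (Q : Set L)) (g : H) (y : YY Q) :
    ((rhoY H Q hn g y : YY Q) : L) = g * y * (g : L)⁻¹ := rfl

/-- The hypotheses of the counting part, on the centre of `Q₁`. -/
theorem stab_rho {H U Q₁ A : Subgroup L} (hUH : U ≤ H) (hQ₁U : Q₁ ≤ U) (hQ₁n : H ≤ normalizer (Q₁ : Set L))
    (hA : IsMaxIn 0 U A) (x : YY Q₁)
    (hx : ∃ a ∈ A.subgroupOf H, rhoY H Q₁ hQ₁n a x ≠ x) :
    ∃ a ∈ A.subgroupOf H, rhoY H Q₁ hQ₁n a x ≠ x ∧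
      ∀ b ∈ A.subgroupOf H, rhoY H Q₁ hQ₁n b (x⁻¹ * rhoY H Q₁ hQ₁n a x) = x⁻¹ * rhoY H Q₁ hQ₁n a x := by
  obtain ⟨a₀, ha₀, hne⟩ := hx
  have hsub : ∀ a : H, ∀ y : YY Q₁, rhoY H Q₁ hQ₁n a y ≠ y ↔ (a : L) * y * (a : L)⁻¹ ≠ y := by
    intro a y
    rw [not_iff_not]
    exact ⟨fun h => congrArg Subtype.val h, fun h => Subtype.ext h⟩
  obtain ⟨a, ha, h1, h2⟩ := stab_of_max (Y := YY Q₁) hA (inf_le_left.trans hQ₁U)
    (fun a ha b hb => Subgroup.mem_centralizer_iff.1 hb.2 a ha.1)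
    (fun a ha y hy => (mem_normalizer_iff.1 (normalizer_le_YY hQ₁n (hUH (hA.1 ha))) y).1 hy) x.2
    ⟨a₀, ha₀, (hsub a₀ x).1 hne⟩
  refine ⟨⟨a, hUH (hA.1 ha)⟩, ha, (hsub _ x).2 h1, fun b hb => Subtype.ext ?_⟩
  exact h2 b hb

theorem orderOf_pow_lt {z : L} (hz : z ≠ 1) {k : ℕ} (hk : z ^ p ^ k = 1) : orderOf (z ^ p) < orderOf z := by
  have hp' := hp.out
  obtain ⟨j, -, hj⟩ := (Nat.dvd_prime_pow hp').1 (orderOf_dvd_of_pow_eq_one hk)
  have hpos : 0 < orderOf z := orderOf_pos_iff.2 (isOfFinOrder_of_finite z)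
  rcases j with _ | j
  · exact absurd (orderOf_eq_one_iff.1 (by simpa using hj)) hz
  · rw [orderOf_pow' z hp'.ne_zero, hj, Nat.gcd_eq_right (dvd_pow_self p (Nat.succ_ne_zero j))]
    exact Nat.div_lt_self (pow_pos hp'.pos _) hp'.one_lt

include hQ₀p hQ₀c in
/-- The `p`-th power version of the theorem on the centre of `N(J(U))`. -/
theorem lt_pow :
    ∀ (n : ℕ) (H U : Subgroup L) (w : L), orderOf (w ^ p) = n → Q₀ ≤ H → IsSyl p H U → w ∈ U →
      (∀ u ∈ U, u * w = w * u) → (∀ x ∈ H, x ∈ normalizer (jOf 0 U : Set L) → x * w ^ p = w ^ p * x) →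
      ∀ x ∈ H, x * w ^ p = w ^ p * x := by
  intro n
  induction n using Nat.strong_induction_on with
  | _ n ih =>
  intro H U w hn hQ₀H hSyl hwU hwc hJ
  let E : Subgroup L → L → Prop := fun U z => orderOf z = n ∧ ∃ w ∈ U, (∀ u ∈ U, u * w = w * u) ∧ z = w ^ p
  have hE : ∀ U U' z, E U z → U' ≤ U → Q₀ ≤ U' → z ∈ U' → E U' z := by
    rintro U U' z ⟨h1, w, hw, hwc, rfl⟩ hU' hQU' hz
    refine ⟨h1, w, ?_, fun u hu => hwc u (hU' hu), rfl⟩
    refine hQU' (hQ₀c (Subgroup.mem_centralizer_iff.2 fun q hq => ?_))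
    exact (hwc q (hU' (hQU' hq)))
  refine lt_reduction Q₀ hQ₀p E hE ?_ (Nat.card H) H U (w ^ p) rfl hQ₀H hSyl (U.pow_mem hwU p)
    (fun u hu => ((Commute.pow_right (hwc u hu : Commute u w) p) : _)) ⟨hn, w, hwU, hwc, rfl⟩ hJ
  clear hn hQ₀H hSyl hwU hwc hJ H U w
  intro H U z hQ₀H hSyl hzU hzc hEz hJ Q₁ hQ₀₁ hQ₁U hQ₁p hQ₁n hAex hA
  obtain ⟨hord, w, hwU, hwc, rfl⟩ := hEz
  have hUH := hSyl.1
  have hUp := hSyl.2.1
  have hpow' : ∀ x ∈ H, x * (w ^ p) ^ p = (w ^ p) ^ p * x := by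
    by_cases h1 : w ^ p = 1
    · intro x _
      simp [h1]
    · obtain ⟨k, hk⟩ := hUp ⟨w ^ p, hzU⟩
      have hk' : (w ^ p) ^ p ^ k = 1 := congrArg Subtype.val hk
      have hlt := orderOf_pow_lt h1 hk'
      rw [hord] at hlt
      refine ih _ hlt H U (w ^ p) rfl hQ₀H hSyl hzU hzc ?_
      intro x hx hxN
      exact Commute.pow_right (hJ x hx hxN : Commute x (w ^ p)) p
  have hwQ : w ∈ Q₁ := by
    refine hQ₀₁ (hQ₀c (Subgroup.mem_centralizer_iff.2 fun q hq => ?_))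
    exact hwc q (hQ₁U (hQ₀₁ hq))
  have hwY : w ∈ YY Q₁ := ⟨hwQ, Subgroup.mem_centralizer_iff.2 fun q hq => hwc q (hQ₁U hq)⟩
  obtain ⟨A, hAmax, hAQ⟩ := hAex
  have hKp : IsPGroup p (YY Q₁) := hQ₁p.to_le inf_le_left
  have hstabρ := fun x hx => stab_rho hUH hQ₁U hQ₁n hAmax x hx
  have hcoe : ∀ (g : H) (y : YY Q₁), ((rhoY H Q₁ hQ₁n g y : YY Q₁) : L) = g * y * (g : L)⁻¹ := fun g y => rfl
  have key := fix_pow (ρ := rhoY H Q₁ hQ₁n) (A := A.subgroupOf H) (p := p) hKp (w := ⟨w, hwY⟩) ?_ hstabρ ?_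
    (U := U.subgroupOf H) ?_ ?_
  · intro x hx
    have h1 := key ⟨x, hx⟩
    have h2 := congrArg Subtype.val h1
    have h3 : x * w ^ p * x⁻¹ = w ^ p := by
      rw [hcoe] at h2
      simpa using h2
    calc x * w ^ p = x * w ^ p * x⁻¹ * x := by group
      _ = _ := by rw [h3]
  · intro g hg
    have h1 : ((g : L) * w ^ p * (g : L)⁻¹) = w ^ p := by
      refine hA A hAmax hAQ g g.2 ?_
      intro a ha
      have h2 := hg ⟨a, hUH (hAmax.1 ha)⟩ ha
      have h3 := congrArg Subtype.val h2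
      rw [hcoe, hcoe] at h3
      have h4 : a * ((g : L) * w ^ p * (g : L)⁻¹) * a⁻¹ = (g : L) * w ^ p * (g : L)⁻¹ := by
        simpa using h3
      calc a * ((g : L) * w ^ p * (g : L)⁻¹) = a * ((g : L) * w ^ p * (g : L)⁻¹) * a⁻¹ * a := by group
        _ = _ := by rw [h4]
    refine Subtype.ext ?_
    rw [hcoe]
    simpa using h1
  · intro g
    refine Subtype.ext ?_
    have h1 := hpow' g g.2
    have h2 : (g : L) * (w ^ p) ^ p * (g : L)⁻¹ = (w ^ p) ^ p := by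
      rw [h1, mul_inv_cancel_right]
    simp only [SubmonoidClass.coe_pow, hcoe, Subgroup.coe_mk] at *
    rw [conj_pow]
    exact h2
  · intro u hu
    refine Subtype.ext ?_
    rw [hcoe]
    have h1 := hwc _ (Subgroup.mem_subgroupOf.1 hu)
    simp only [h1]
    group
  · exact ((Nat.Prime.coprime_iff_not_dvd hp.out).2 hSyl.2.2).symm

include hQ₀p hQ₀c in
/-- The odd version of the theorem on the centre of `N(J(U))`. -/
theorem lt_odd (hp2 : p ≠ 2) (H U : Subgroup L) (z : L) (hQ₀H : Q₀ ≤ H) (hSyl : IsSyl p H U) (hzU : z ∈ U)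
    (hzc : ∀ u ∈ U, u * z = z * u) (hJ : ∀ x ∈ H, x ∈ normalizer (jOf 0 U : Set L) → x * z = z * x) :
    ∀ x ∈ H, x * z = z * x := by
  refine lt_reduction Q₀ hQ₀p (fun _ _ => True) (fun _ _ _ _ _ _ _ => trivial) ?_ (Nat.card H) H U z rfl hQ₀H hSyl hzU
    hzc trivial hJ
  clear hQ₀H hSyl hzU hzc hJ H U z
  intro H U z hQ₀H hSyl hzU hzc _ hJ Q₁ hQ₀₁ hQ₁U hQ₁p hQ₁n hAex hA
  have hUH := hSyl.1
  have hUp := hSyl.2.1
  have hpow' : ∀ x ∈ H, x * z ^ p = z ^ p * x :=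
    lt_pow Q₀ hQ₀p hQ₀c _ H U z rfl hQ₀H hSyl hzU hzc
      (fun x hx hxN => Commute.pow_right (hJ x hx hxN : Commute x z) p)
  have hwQ : z ∈ Q₁ := by
    refine hQ₀₁ (hQ₀c (Subgroup.mem_centralizer_iff.2 fun q hq => ?_))
    exact hzc q (hQ₁U (hQ₀₁ hq))
  have hwY : z ∈ YY Q₁ := ⟨hwQ, Subgroup.mem_centralizer_iff.2 fun q hq => hzc q (hQ₁U hq)⟩
  obtain ⟨A, hAmax, hAQ⟩ := hAex
  have hKp : IsPGroup p (YY Q₁) := hQ₁p.to_le inf_le_left
  have hstabρ := fun x hx => stab_rho hUH hQ₁U hQ₁n hAmax x hx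
  have hcoe : ∀ (g : H) (y : YY Q₁), ((rhoY H Q₁ hQ₁n g y : YY Q₁) : L) = g * y * (g : L)⁻¹ := fun g y => rfl
  have key := fix_odd (ρ := rhoY H Q₁ hQ₁n) (A := A.subgroupOf H) (p := p) hp2 hKp (z := ⟨z, hwY⟩) ?_ hstabρ ?_
    (U := U.subgroupOf H) ?_ ?_
  · intro x hx
    have h1 := key ⟨x, hx⟩
    have h2 := congrArg Subtype.val h1
    have h3 : x * z * x⁻¹ = z := by
      rw [hcoe] at h2
      simpa using h2
    calc x * z = x * z * x⁻¹ * x := by group
      _ = _ := by rw [h3]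
  · intro g hg
    have h1 : ((g : L) * z * (g : L)⁻¹) = z := by
      refine hA A hAmax hAQ g g.2 ?_
      intro a ha
      have h2 := hg ⟨a, hUH (hAmax.1 ha)⟩ ha
      have h3 := congrArg Subtype.val h2
      rw [hcoe, hcoe] at h3
      have h4 : a * ((g : L) * z * (g : L)⁻¹) * a⁻¹ = (g : L) * z * (g : L)⁻¹ := by
        simpa using h3
      calc a * ((g : L) * z * (g : L)⁻¹) = a * ((g : L) * z * (g : L)⁻¹) * a⁻¹ * a := by group
        _ = _ := by rw [h4]
    refine Subtype.ext ?_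
    rw [hcoe]
    simpa using h1
  · intro g
    refine Subtype.ext ?_
    have h1 := hpow' g g.2
    have h2 : (g : L) * z ^ p * (g : L)⁻¹ = z ^ p := by
      rw [h1, mul_inv_cancel_right]
    simp only [SubmonoidClass.coe_pow, hcoe, Subgroup.coe_mk] at *
    rw [conj_pow]
    exact h2
  · intro u hu
    refine Subtype.ext ?_
    rw [hcoe]
    have h1 := hzc _ (Subgroup.mem_subgroupOf.1 hu)
    simp only [h1]
    group
  · exact ((Nat.Prime.coprime_iff_not_dvd hp.out).2 hSyl.2.2).symm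

end modes

end Cfsg.Agent.Lib.FusionTheory.CenterJ
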