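import Cfsg.Agent.Lib.QuadAct.Replacement

/-!
# Control of fixed points: the trace computation (helper93)

A product over an orbit of a group acting quadratically with a unique fixed point vanishes, for odd `p`.
-/

set_option autoImplicit false
set_option linter.unusedSectionVars false
set_option linter.style.haveILetI false

open scoped commutatorElement

namespace Cfsg.Agent.Lib.FusionTheory.FixPts1

section trace

variable {V : Type*} [CommGroup V] [Finite V] {B : Type*} [Group B] [MulDistribMulAction B V]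

/-- The product of the elements of a subgroup of odd exponent is trivial. -/
theorem prod_subgroup_odd (N : Subgroup V) (s : Finset V) (hs : ∀ v, v ∈ s ↔ v ∈ N) {p : ℕ} (hp : p.Prime)
    (hp2 : p ≠ 2) (hexp : ∀ n ∈ N, n ^ p = 1) : ∏ n ∈ s, n = 1 := by
  refine Finset.prod_involution (fun a _ => a⁻¹) (fun a _ => mul_inv_cancel a) ?_ ?_ (fun a _ => inv_inv a)
  · intro a ha h1 h2
    apply h1
    have h3 : a ^ 2 = 1 := by
      rw [pow_two]
      nth_rewrite 1 [← h2]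
      exact inv_mul_cancel a
    have h4 := hexp a ((hs a).1 ha)
    have h5 : Nat.Coprime 2 p := (Nat.coprime_primes Nat.prime_two hp).2 (Ne.symm hp2)
    have h6 : orderOf a ∣ 2 := orderOf_dvd_of_pow_eq_one h3
    have h7 : orderOf a ∣ p := orderOf_dvd_of_pow_eq_one h4
    exact orderOf_eq_one_iff.1 (Nat.eq_one_of_dvd_coprimes h5 h6 h7)
  · intro a ha
    exact (hs _).2 (N.inv_mem ((hs a).1 ha))

/-- **The trace over an orbit under a quadratic group with a unique fixed point vanishes.** -/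
theorem trace_abs {x : V} {p : ℕ} (hp : p.Prime) (hp2 : p ≠ 2) (O : Finset V)
    (hB : ∀ b : B, ∀ ω ∈ O, b • ω ∈ O) (hfix : ∀ b : B, b • x = x)
    (hexp : ∀ ω ∈ O, (x⁻¹ * ω) ^ p = 1)
    (hquad : ∀ ω ∈ O, ∀ b c : B, c • (b • (x⁻¹ * ω) * (x⁻¹ * ω)⁻¹) = b • (x⁻¹ * ω) * (x⁻¹ * ω)⁻¹)
    (huf : ∀ ω ∈ O, (∀ b : B, b • ω = ω) → ω = x) : ∏ ω ∈ O, (x⁻¹ * ω) = 1 := by
  classical
  haveI := Fintype.ofFinite V
  rw [Finset.prod_partition (MulAction.orbitRel B V)]
  refine Finset.prod_eq_one (fun q hq => ?_)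
  obtain ⟨ω₀, hω₀, rfl⟩ := Finset.mem_image.1 hq
  have hmem : ∀ ω, ω ∈ O.filter (fun y => (Quotient.mk'' y : Quotient (MulAction.orbitRel B V)) = Quotient.mk'' ω₀) →
      ω ∈ O ∧ ∃ b : B, b • ω₀ = ω := by
    intro ω hω
    obtain ⟨h1, h2⟩ := Finset.mem_filter.1 hω
    refine ⟨h1, ?_⟩
    have h3 : MulAction.orbitRel B V ω ω₀ := Quotient.exact' h2
    obtain ⟨b, hb⟩ := h3
    exact ⟨b, hb⟩
  by_cases hf : ∀ b : B, b • ω₀ = ω₀
  · have hx := huf ω₀ hω₀ hf
    refine Finset.prod_eq_one (fun ω hω => ?_)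
    obtain ⟨-, b, rfl⟩ := hmem ω hω
    rw [hf b, hx, inv_mul_cancel]
  -- the nontrivial orbit
  push Not at hf
  obtain ⟨b₀, hb₀⟩ := hf
  set m := x⁻¹ * ω₀ with hm
  have hω₀e : ω₀ = x * m := by rw [hm]; group
  have hact : ∀ b : B, b • ω₀ = x * b • m := by
    intro b
    rw [hω₀e, smul_mul', hfix]
  have hq' : ∀ b c : B, c • (b • m * m⁻¹) = b • m * m⁻¹ := hquad ω₀ hω₀
  let d : B →* V := MonoidHom.mk' (fun b => b • m * m⁻¹) (by
    intro b c
    have h1 := hq' c b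
    have h2 : c • m = (c • m * m⁻¹) * m := by group
    show (b * c) • m * m⁻¹ = (b • m * m⁻¹) * (c • m * m⁻¹)
    rw [mul_smul]
    nth_rewrite 1 [h2]
    rw [smul_mul', h1]
    simp only [mul_comm, mul_left_comm])
  have hd : ∀ b, d b = b • m * m⁻¹ := fun _ => rfl
  have hmp : m ^ p = 1 := hexp ω₀ hω₀
  have hNexp : ∀ n ∈ d.range, n ^ p = 1 := by
    rintro _ ⟨b, rfl⟩
    rw [hd, mul_pow, inv_pow, hmp, ← smul_pow', hmp, smul_one, inv_one, one_mul]
  haveI hpf : Fact p.Prime := ⟨hp⟩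
  have hNp : IsPGroup p d.range := fun n => ⟨1, Subtype.ext (by simpa using hNexp n n.2)⟩
  let s : Finset V := (Set.toFinite (d.range : Set V)).toFinset
  have hs : ∀ v, v ∈ s ↔ v ∈ d.range := fun v => Set.Finite.mem_toFinset _
  have hbij : ∏ ω ∈ O.filter (fun y => (Quotient.mk'' y : Quotient (MulAction.orbitRel B V)) = Quotient.mk'' ω₀), (x⁻¹ * ω) =
      ∏ n ∈ s, (m * n) := by
    refine Finset.prod_nbij' (fun ω => m⁻¹ * (x⁻¹ * ω)) (fun n => x * (m * n)) ?_ ?_ ?_ ?_ ?_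
    · intro ω hω
      obtain ⟨-, b, rfl⟩ := hmem ω hω
      refine (hs _).2 ⟨b, ?_⟩
      rw [hd, hact, inv_mul_cancel_left, mul_comm]
    · intro n hn
      obtain ⟨b, rfl⟩ := (hs _).1 hn
      have e : x * (m * d b) = b • ω₀ := by
        rw [hd, hact, mul_comm (b • m) m⁻¹, mul_inv_cancel_left]
      show x * (m * d b) ∈ _
      rw [e]
      refine Finset.mem_filter.2 ⟨hB b ω₀ hω₀, ?_⟩
      exact Quotient.sound' ⟨b, rfl⟩
    · intro ω _
      simp
    · intro n _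
      simp
    · intro ω _
      simp
  rw [hbij, Finset.prod_mul_distrib, prod_subgroup_odd d.range s hs hp hp2 hNexp, mul_one, Finset.prod_const]
  obtain ⟨k, hk⟩ := IsPGroup.iff_card.1 hNp
  have hcard : s.card = Nat.card d.range := by
    rw [Nat.card_eq_fintype_card]
    rw [← Fintype.card_coe s]
    refine Fintype.card_congr (Equiv.subtypeEquivRight (fun v => hs v))
  have hk0 : k ≠ 0 := by
    rintro rfl
    rw [pow_zero] at hk
    have hb : (⟨d b₀, ⟨b₀, rfl⟩⟩ : d.range) = 1 := by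
      haveI : Subsingleton d.range := (Nat.card_eq_one_iff_unique.1 hk).1
      exact Subsingleton.elim _ _
    have hb' : d b₀ = 1 := congrArg Subtype.val hb
    apply hb₀
    rw [hω₀e, smul_mul', hfix]
    congr 1
    rw [hd] at hb'
    exact mul_inv_eq_one.1 hb'
  obtain ⟨k', rfl⟩ := Nat.exists_eq_succ_of_ne_zero hk0
  rw [hcard, hk, pow_succ, mul_comm, pow_mul, hmp, one_pow]

/-- The conclusion of the trace computation: a group with vanishing trace fixes the point. -/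
theorem trace_conclude {X : Type*} [Group X] [MulDistribMulAction X V] {x : V} {p : ℕ} (O : Finset V)
    (hO : ∀ (g : X), ∀ ω ∈ O, g • ω ∈ O) (hs : ∏ ω ∈ O, (x⁻¹ * ω) = 1) (hexp : ∀ g : X, (x⁻¹ * g • x) ^ p = 1)
    (hcard : O.card.Coprime p) (g : X) : g • x = x := by
  classical
  set m := x⁻¹ * g • x with hm
  have h1 : g • (∏ ω ∈ O, (x⁻¹ * ω)) = 1 := by rw [hs, smul_one]
  have h2 : g • (∏ ω ∈ O, (x⁻¹ * ω)) = ∏ ω ∈ O, (g • (x⁻¹ * ω)) :=
    map_prod (MulDistribMulAction.toMonoidHom V g) _ _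
  have h3 : ∀ ω, g • (x⁻¹ * ω) = m⁻¹ * (x⁻¹ * g • ω) := by
    intro ω
    rw [smul_mul', smul_inv', hm]
    group
  have h4 : ∏ ω ∈ O, (x⁻¹ * g • ω) = ∏ ω ∈ O, (x⁻¹ * ω) := by
    refine Finset.prod_nbij' (fun ω => g • ω) (fun ω => g⁻¹ • ω) (fun ω hω => hO g ω hω) (fun ω hω => hO g⁻¹ ω hω) ?_ ?_ ?_
    · intro ω _
      simp
    · intro ω _
      simp
    · intro ω _
      rfl
  rw [h2] at h1
  simp only [h3] at h1
  rw [Finset.prod_mul_distrib, h4, hs, mul_one, Finset.prod_const, inv_pow, inv_eq_one] at h1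
  have h5 : m ^ p = 1 := hexp g
  have h6 : m = 1 := orderOf_eq_one_iff.1 (Nat.eq_one_of_dvd_coprimes hcard (orderOf_dvd_of_pow_eq_one h1) (orderOf_dvd_of_pow_eq_one h5))
  rw [hm, inv_mul_eq_one] at h6
  exact h6.symm

end trace

end Cfsg.Agent.Lib.FusionTheory.FixPts1
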