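import Cfsg.Agent.Lib.FusionTheory.HNNWords
import Mathlib.GroupTheory.FreeGroup.NielsenSchreier
import Mathlib.GroupTheory.SemidirectProduct

set_option autoImplicit false

/-!
Freeness of the kernel of a homomorphism `π : G →* K` that is injective on the base of an
iterated HNN extension: a universal property for cocycles is carried along HNN extensions and
gives that the action groupoid of `G` on `K` is free.
-/

namespace Cfsg.Agent.Lib.FusionTheory.HNNFree

universe u

open HNNExtension CategoryTheory

variable {G K : Type u} [Group G] [Group K]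

/-- The wreath-like semidirect product used to encode cocycles. -/
abbrev Wr (K H : Type u) [Group K] [Group H] :=
  (K → H) ⋊[mulAutArrow (G := K) (A := K) (M := H)] K

theorem wr_mul_left {H : Type u} [Group H] (a b : Wr K H) (x : K) :
    (a * b).left x = a.left x * b.left (a.right⁻¹ * x) := rfl

theorem wr_mul_right {H : Type u} [Group H] (a b : Wr K H) :
    (a * b).right = a.right * b.right := rfl

theorem wr_one_left {H : Type u} [Group H] (x : K) : (1 : Wr K H).left x = 1 := rfl

theorem wr_one_right {H : Type u} [Group H] : (1 : Wr K H).right = 1 := rfl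

theorem wr_ext {H : Type u} [Group H] {a b : Wr K H} (h1 : a.left = b.left)
    (h2 : a.right = b.right) : a = b :=
  SemidirectProduct.ext h1 h2

/-- Universal property of the cocycles of `G` on `K` (via `π`) with respect to generators. -/
def FreeData (π : G →* K) {E : Type u} (gen : E → G) (src : E → K) : Prop :=
  ∀ (H : Type u) [Group H] (f : E → H), ∃! F : G →* Wr K H,
    (∀ g, (F g).right = π g) ∧ ∀ e, (F (gen e)).left (π (gen e) * src e) = f e

section Orbits

variable (π : G →* K) (A : Subgroup G)

/-- Orbits of `A` on `K`. -/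
def orb : Setoid K where
  r k k' := ∃ a ∈ A, π a * k = k'
  iseqv :=
    ⟨fun k => ⟨1, A.one_mem, by simp⟩,
     fun {k k'} ⟨a, ha, h⟩ => ⟨a⁻¹, A.inv_mem ha, by rw [← h]; simp⟩,
     fun {k k' k''} ⟨a, ha, h⟩ ⟨b, hb, h'⟩ =>
      ⟨b * a, A.mul_mem hb ha, by rw [← h', ← h]; simp [mul_assoc]⟩⟩

/-- Representative of the orbit. -/
noncomputable def rp (k : K) : K := (Quotient.mk (orb π A) k).out

theorem exists_aa (k : K) : ∃ a ∈ A, π a * rp π A k = k := by
  have h : (orb π A).r (rp π A k) k := Quotient.mk_out (s := orb π A) k
  exact h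

/-- The element of `A` moving the representative to the point. -/
noncomputable def aa (k : K) : G := Classical.choose (exists_aa π A k)

theorem aa_mem (k : K) : aa π A k ∈ A := (Classical.choose_spec (exists_aa π A k)).1

theorem aa_spec (k : K) : π (aa π A k) * rp π A k = k :=
  (Classical.choose_spec (exists_aa π A k)).2

theorem rp_mul {a : G} (ha : a ∈ A) (k : K) : rp π A (π a * k) = rp π A k := by
  unfold rp
  congr 1
  refine Quotient.sound (s := orb π A) ?_
  exact ⟨a⁻¹, A.inv_mem ha, by simp⟩

theorem rp_rp (k : K) : rp π A (rp π A k) = rp π A k := by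
  obtain ⟨a, ha, h⟩ := exists_aa π A k
  have h2 := rp_mul π A ha (rp π A k)
  rw [h] at h2
  exact h2.symm

variable {π A}

theorem aa_unique (hA : ∀ a ∈ A, π a = 1 → a = 1) {a : G} (ha : a ∈ A) {k : K}
    (h : π a * rp π A k = k) : a = aa π A k := by
  have h1 : π (a⁻¹ * aa π A k) = 1 := by
    have := aa_spec π A k
    rw [map_mul, map_inv]
    rw [← h] at this
    have h2 : π (aa π A (π a * rp π A k)) * rp π A (π a * rp π A k) = π a * rp π A k := this
    rw [h] at h2
    have h3 : π (aa π A k) * rp π A k = π a * rp π A k := by rw [h2, h]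
    have h4 := mul_right_cancel h3
    rw [h4]; simp
  have h2 := hA _ (A.mul_mem (A.inv_mem ha) (aa_mem π A k)) h1
  rw [inv_mul_eq_one] at h2
  exact h2

theorem aa_mul (hA : ∀ a ∈ A, π a = 1 → a = 1) {a : G} (ha : a ∈ A) (k : K) :
    aa π A (π a * k) = a * aa π A k := by
  symm
  apply aa_unique hA (A.mul_mem ha (aa_mem π A k))
  rw [rp_mul π A ha, map_mul, mul_assoc, aa_spec]

theorem aa_rp (hA : ∀ a ∈ A, π a = 1 → a = 1) (k : K) : aa π A (rp π A k) = 1 := by
  symm
  apply aa_unique hA A.one_mem
  rw [rp_rp]; simp

end Orbits

section Base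

variable {T : Type u} [Group T]

/-- The base of the induction: a group acting freely has a free groupoid (a forest). -/
theorem exists_freeData_base (π : T →* K) (hπ : Function.Injective π) :
    ∃ (E : Type u) (gen : E → T) (src : E → K), FreeData π gen src := by
  have hA : ∀ a ∈ (⊤ : Subgroup T), π a = 1 → a = 1 := fun a _ h =>
    hπ (by rw [h, map_one])
  classical
  refine ⟨{ k : K // k ≠ rp π ⊤ k }, fun e => aa π ⊤ e.1, fun e => rp π ⊤ e.1, ?_⟩
  intro H _ f
  -- the potential
  let Φ : K → H := fun k => if h : k ≠ rp π ⊤ k then f ⟨k, h⟩ else 1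
  let F : T →* Wr K H :=
    { toFun := fun s => ⟨fun b => Φ b * (Φ ((π s)⁻¹ * b))⁻¹, π s⟩
      map_one' := by
        apply wr_ext
        · funext b
          change Φ b * (Φ ((π 1)⁻¹ * b))⁻¹ = 1
          simp
        · exact π.map_one
      map_mul' := by
        intro s s'
        apply wr_ext
        · funext b
          rw [wr_mul_left]
          change Φ b * (Φ ((π (s * s'))⁻¹ * b))⁻¹ =
            (Φ b * (Φ ((π s)⁻¹ * b))⁻¹) *
              (Φ ((π s)⁻¹ * b) * (Φ ((π s')⁻¹ * ((π s)⁻¹ * b)))⁻¹)
          simp [mul_assoc]
        · exact π.map_mul s s' }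
  have hF : ∀ s b, (F s).left b = Φ b * (Φ ((π s)⁻¹ * b))⁻¹ := fun _ _ => rfl
  refine ⟨F, ⟨fun g => rfl, ?_⟩, ?_⟩
  · rintro ⟨k, hk⟩
    change (F (aa π ⊤ k)).left (π (aa π ⊤ k) * rp π ⊤ k) = f ⟨k, hk⟩
    rw [aa_spec, hF]
    have h1 : (π (aa π ⊤ k))⁻¹ * k = rp π ⊤ k := by
      rw [inv_mul_eq_iff_eq_mul, aa_spec]
    rw [h1]
    have h2 : Φ (rp π ⊤ k) = 1 := by
      simp only [Φ]
      rw [dif_neg]
      rw [rp_rp]; simp
    rw [h2]
    simp only [inv_one, mul_one, Φ]
    rw [dif_pos hk]
  · rintro F' ⟨hr, hg⟩
    ext s
    · -- left part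
      rename_i b
      have hcoc : ∀ (s s' : T) (b : K), (F' (s * s')).left b =
          (F' s).left b * (F' s').left ((π s)⁻¹ * b) := by
        intro s s' b
        rw [map_mul, wr_mul_left, hr]
      have hone : ∀ b : K, (F' 1).left b = 1 := by
        intro b
        rw [map_one]; rfl
      have hΦ : ∀ k : K, (F' (aa π ⊤ k)).left k = Φ k := by
        intro k
        by_cases hk : k ≠ rp π ⊤ k
        · have := hg ⟨k, hk⟩
          simp only at this
          rw [aa_spec] at this
          rw [this]
          simp only [Φ]
          rw [dif_pos hk]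
        · have hk' : k = rp π ⊤ k := not_not.1 hk
          have : aa π ⊤ k = 1 := by
            rw [hk']
            exact aa_rp hA k
          rw [this, hone]
          simp only [Φ]
          rw [dif_neg hk]
      have h1 : aa π ⊤ b = s * aa π ⊤ ((π s)⁻¹ * b) := by
        have := aa_mul hA (a := s) (Subgroup.mem_top s) ((π s)⁻¹ * b)
        rw [mul_inv_cancel_left] at this
        exact this
      have h2 := hcoc s (aa π ⊤ ((π s)⁻¹ * b)) b
      rw [← h1, hΦ, hΦ] at h2
      change (F' s).left b = Φ b * (Φ ((π s)⁻¹ * b))⁻¹
      rw [h2]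
      simp
    · exact hr s

end Base

section Step

variable {A B : Subgroup G} (φ : A ≃* B) (π : G →* K) (k : K)
  (hk : ∀ a : A, k * π a = π (φ a) * k)

/-- The extension of `π` to the HNN extension. -/
noncomputable def piExt (hk : ∀ a : A, k * π a = π (φ a) * k) : HNNExtension G A B φ →* K :=
  HNNExtension.lift π k hk

@[simp] theorem piExt_of (g : G) : piExt φ π k hk (of g) = π g := HNNExtension.lift_of _ _ _ _

@[simp] theorem piExt_t : piExt φ π k hk t = k := HNNExtension.lift_t _ _ _

/-- The inductive step: adding a stable letter. -/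
theorem freeData_step (hA : ∀ a ∈ A, π a = 1 → a = 1)
    {E : Type u} {gen : E → G} {src : E → K} (hfree : FreeData π gen src) :
    FreeData (piExt φ π k hk)
      (fun e : E ⊕ Quotient (orb π A) => Sum.elim (fun e => of (gen e)) (fun _ => t) e)
      (fun e : E ⊕ Quotient (orb π A) => Sum.elim src (fun o => o.out) e) := by
  classical
  intro H _ f
  obtain ⟨F₀, ⟨hF₀r, hF₀g⟩, hF₀u⟩ := hfree H (fun e => f (Sum.inl e))
  -- abbreviations
  let α : G → K → H := fun a y => (F₀ a).left y
  have hα : ∀ a a' y, α (a * a') y = α a y * α a' ((π a)⁻¹ * y) := by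
    intro a a' y
    simp only [α]
    rw [map_mul, wr_mul_left, hF₀r]
  have hα1 : ∀ y, α 1 y = 1 := by
    intro y
    simp only [α]
    rw [map_one]; rfl
  let aφ : G → G := fun y => if h : y ∈ A then ((φ ⟨y, h⟩ : B) : G) else 1
  have haφ : ∀ a (h : a ∈ A), aφ a = ((φ ⟨a, h⟩ : B) : G) := fun a h => dif_pos h
  have haφmul : ∀ a a', a ∈ A → a' ∈ A → aφ (a * a') = aφ a * aφ a' := by
    intro a a' h h'
    rw [haφ _ (A.mul_mem h h'), haφ _ h, haφ _ h']
    have : (⟨a * a', A.mul_mem h h'⟩ : A) = ⟨a, h⟩ * ⟨a', h'⟩ := rfl
    rw [this, map_mul]; rfl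
  have hkφ : ∀ a, a ∈ A → k * π a = π (aφ a) * k := by
    intro a h
    rw [haφ a h]
    exact hk ⟨a, h⟩
  -- the definition of the new cocycle
  let q : K → Quotient (orb π A) := fun y => Quotient.mk (orb π A) y
  let ct : K → H := fun y =>
    α (aφ (aa π A y)) (k * y) * f (Sum.inr (q y)) * (α (aa π A y) y)⁻¹
  let c : K → H := fun b => ct (k⁻¹ * b)
  have hcc : ∀ y, c (k * y) = ct y := by
    intro y
    simp only [c, inv_mul_cancel_left]
  let x : Wr K H := ⟨c, k⟩
  have hq : ∀ a, a ∈ A → ∀ y, q (π a * y) = q y := by
    intro a ha y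
    refine Quotient.sound (s := orb π A) ?_
    exact ⟨a⁻¹, A.inv_mem ha, by simp⟩
  -- the key relation
  have hrel : ∀ a (ha : a ∈ A) (y : K),
      ct y * α a y = α (aφ a) (k * y) * ct ((π a)⁻¹ * y) := by
    intro a ha y
    have h1 : aa π A y = a * aa π A ((π a)⁻¹ * y) := by
      have := aa_mul hA ha ((π a)⁻¹ * y)
      rwa [mul_inv_cancel_left] at this
    set a₂ := aa π A ((π a)⁻¹ * y) with ha₂
    have ha₂m : a₂ ∈ A := aa_mem π A _
    have h3 : (π (aφ a))⁻¹ * (k * y) = k * ((π a)⁻¹ * y) := by
      have := hkφ a ha
      rw [inv_mul_eq_iff_eq_mul, ← mul_assoc, ← this]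
      simp [mul_assoc]
    simp only [ct]
    rw [← ha₂, h1]
    have hq' : q ((π a)⁻¹ * y) = q y := by
      have := hq a⁻¹ (A.inv_mem ha) y
      rwa [map_inv] at this
    rw [hq', haφmul a a₂ ha ha₂m, hα (aφ a) (aφ a₂), hα a a₂, h3]
    group
  have hx : ∀ a : A, x * F₀ a = F₀ (φ a : G) * x := by
    rintro ⟨a, ha⟩
    apply wr_ext
    · funext b
      rw [wr_mul_left, wr_mul_left]
      have hφ : ((φ ⟨a, ha⟩ : B) : G) = aφ a := (haφ a ha).symm
      rw [hF₀r, hφ]
      change c b * α a (k⁻¹ * b) = α (aφ a) b * c ((π (aφ a))⁻¹ * b)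
      have h1 := hrel a ha (k⁻¹ * b)
      have h2 : k⁻¹ * ((π (aφ a))⁻¹ * b) = (π a)⁻¹ * (k⁻¹ * b) := by
        have := hkφ a ha
        have h3 : (π (aφ a))⁻¹ = k * (π a)⁻¹ * k⁻¹ := by
          rw [inv_eq_iff_mul_eq_one]
          rw [← mul_assoc, ← mul_assoc]
          have h4 : π (aφ a) = k * π a * k⁻¹ := by rw [this]; simp
          rw [h4]; group
        rw [h3]; group
      simp only [c]
      rw [h2]
      rw [mul_inv_cancel_left] at h1
      exact h1
    · rw [wr_mul_right, wr_mul_right, hF₀r, hF₀r]
      exact hk ⟨a, ha⟩
  let Fs : HNNExtension G A B φ →* Wr K H := HNNExtension.lift F₀ x hx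
  have hFof : ∀ g, Fs (of g) = F₀ g := fun g => HNNExtension.lift_of _ _ _ _
  have hFt : Fs t = x := HNNExtension.lift_t _ _ _
  have hright : ∀ g, (Fs g).right = piExt φ π k hk g := by
    intro g
    have : (SemidirectProduct.rightHom).comp Fs = piExt φ π k hk := by
      apply HNNExtension.hom_ext
      · ext g
        simp [hFof, SemidirectProduct.rightHom, hF₀r]
      · simp [hFt, SemidirectProduct.rightHom]
        rfl
    exact DFunLike.congr_fun this g
  refine ⟨Fs, ⟨hright, ?_⟩, ?_⟩
  · rintro (e | o)
    · simp only [Sum.elim_inl]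
      rw [hFof, piExt_of]
      exact hF₀g e
    · simp only [Sum.elim_inr]
      rw [hFt, piExt_t]
      change c (k * o.out) = _
      rw [hcc]
      simp only [ct]
      have h1 : aa π A o.out = 1 := by
        have h2 : o.out = rp π A o.out := by
          unfold rp
          congr 2
          exact (Quotient.out_eq' o).symm
        rw [h2]
        exact aa_rp hA _
      have h2 : q o.out = o := Quotient.out_eq' o
      rw [h1, h2]
      have h3 : aφ 1 = 1 := by
        have := haφ 1 A.one_mem
        rw [this]
        have h4 : (⟨1, A.one_mem⟩ : A) = 1 := rfl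
        rw [h4, map_one]; rfl
      rw [h3, hα1, hα1]
      simp
  · rintro F₁ ⟨hr₁, hg₁⟩
    -- restriction to the base
    have hbase : F₁.comp of = F₀ := by
      apply hF₀u
      refine ⟨fun g => ?_, fun e => ?_⟩
      · change (F₁ (of g)).right = _
        rw [hr₁, piExt_of]
      · have := hg₁ (Sum.inl e)
        simp only [Sum.elim_inl] at this
        rw [piExt_of] at this
        exact this
    have hofF : ∀ g, F₁ (of g) = F₀ g := fun g => DFunLike.congr_fun hbase g
    -- the value at `t`
    have ht : F₁ t = x := by
      apply wr_ext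
      · funext b
        have hright₁ : (F₁ t).right = k := by rw [hr₁, piExt_t]
        -- relation for `F₁`
        have hrel₁ : ∀ a (ha : a ∈ A) (y : K),
            (F₁ t).left (k * y) * α a y =
              α (aφ a) (k * y) * (F₁ t).left (k * ((π a)⁻¹ * y)) := by
          intro a ha y
          have h1 : (t : HNNExtension G A B φ) * of a = of (aφ a) * t := by
            rw [haφ a ha]
            exact t_mul_of (φ := φ) ⟨a, ha⟩
          have h2 := congrArg (fun z => (F₁ z).left (k * y)) h1
          simp only [map_mul] at h2
          rw [wr_mul_left, wr_mul_left, hofF, hofF, hF₀r, hright₁] at h2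
          have h3 : (π (aφ a))⁻¹ * (k * y) = k * ((π a)⁻¹ * y) := by
            have := hkφ a ha
            rw [inv_mul_eq_iff_eq_mul, ← mul_assoc, ← this]
            simp [mul_assoc]
          rw [h3, inv_mul_cancel_left] at h2
          exact h2
        have hval : ∀ y, (F₁ t).left (k * y) = ct y := by
          intro y
          have h1 := hrel₁ (aa π A y) (aa_mem π A y) y
          have h2 : (π (aa π A y))⁻¹ * y = rp π A y := by
            rw [inv_mul_eq_iff_eq_mul, aa_spec]
          rw [h2] at h1
          have h3 := hg₁ (Sum.inr (q y))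
          simp only [Sum.elim_inr] at h3
          rw [piExt_t] at h3
          have h4 : (q y).out = rp π A y := rfl
          rw [h4] at h3
          rw [h3] at h1
          simp only [ct]
          rw [eq_mul_inv_iff_mul_eq, h1]
        have : b = k * (k⁻¹ * b) := by simp
        rw [this, hval]
        change _ = c (k * (k⁻¹ * b))
        rw [hcc]
      · rw [hr₁, piExt_t]
    have : F₁ = Fs := by
      apply HNNExtension.hom_ext
      · ext g <;> rw [MonoidHom.comp_apply, MonoidHom.comp_apply, hofF, hFof]
      · rw [ht, hFt]
    exact this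

end Step

section Groupoid

variable (π : G →* K) {E : Type u} {gen : E → G} {src : E → K}

set_option backward.isDefEq.respectTransparency.types false in
theorem map_eq_homOfPair {X H : Type u} [MulAction G X] [Group H]
    (F : ActionCategory G X ⥤ SingleObj H) {a b : ActionCategory G X} (f : a ⟶ b) :
    F.map f = (F.map (ActionCategory.homOfPair (ActionCategory.back b) f.val) : H) := by
  revert a b f
  apply ActionCategory.cases
  intros
  rfl

set_option backward.isDefEq.respectTransparency false in
/-- From the universal property to freeness of the kernel. -/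
theorem isFreeGroup_ker (hsurj : Function.Surjective π) (hfree : FreeData π gen src) :
    IsFreeGroup π.ker := by
  letI : MulAction G K := MulAction.compHom K π
  have hsmul : ∀ (g : G) (x : K), g • x = π g * x := fun _ _ => rfl
  haveI : MulAction.IsPretransitive G K := ⟨fun x y => by
    obtain ⟨g, hg⟩ := hsurj (y * x⁻¹)
    exact ⟨g, by rw [hsmul, hg]; simp⟩⟩
  letI inst : IsFreeGroupoid (ActionCategory G K) :=
    { quiverGenerators :=
        ⟨fun a b => { e : E // src e = ActionCategory.back a ∧
          π (gen e) * src e = ActionCategory.back b }⟩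
      of := fun {a b} e => ⟨gen e.1, by
        change π (gen e.1) * ActionCategory.back a = ActionCategory.back b
        have h2 := e.2.2
        rw [e.2.1] at h2
        exact h2⟩
      unique_lift := by
        intro X _ f
        let f' : E → X := fun e =>
          @f ⟨(), src e⟩ ⟨(), π (gen e) * src e⟩ ⟨e, rfl, rfl⟩
        obtain ⟨F', ⟨hFr, hFg⟩, hFu⟩ := hfree X f'
        -- the homomorphism to the semidirect product with `G`
        let F'' : G →* (K → X) ⋊[mulAutArrow] G :=
          { toFun := fun g => ⟨(F' g).left, g⟩
            map_one' := by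
              apply SemidirectProduct.ext
              · rw [map_one]; rfl
              · rfl
            map_mul' := by
              intro g g'
              apply SemidirectProduct.ext
              · funext b
                change (F' (g * g')).left b = (F' g).left b * (F' g').left (g⁻¹ • b)
                rw [map_mul, wr_mul_left, hFr]
                rw [hsmul, map_inv]
              · rfl }
        refine ⟨ActionCategory.uncurry F'' (fun _ => rfl), ?_, ?_⟩
        · rintro ⟨⟨⟩, a : K⟩ ⟨⟨⟩, b : K⟩ ⟨e, he1, he2⟩
          change (F' (gen e)).left b = _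
          change src e = a at he1
          change π (gen e) * src e = b at he2
          subst he1
          subst he2
          rw [hFg]
        · intro E₁ hE₁
          let C₁ := ActionCategory.curry E₁
          let C₂ : G →* Wr K X :=
            { toFun := fun g => ⟨(C₁ g).left, π g⟩
              map_one' := by
                apply wr_ext
                · rw [map_one]; rfl
                · exact π.map_one
              map_mul' := by
                intro g g'
                apply wr_ext
                · funext b
                  rw [wr_mul_left]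
                  change (C₁ (g * g')).left b = (C₁ g).left b * (C₁ g').left ((π g)⁻¹ * b)
                  rw [map_mul]
                  change (C₁ g).left b * (C₁ g').left (g⁻¹ • b) = _
                  rw [hsmul, map_inv]
                · exact π.map_mul g g' }
          have hC₂ : C₂ = F' := by
            apply hFu
            refine ⟨fun g => rfl, fun e => ?_⟩
            change (C₁ (gen e)).left (π (gen e) * src e) = f' e
            have := hE₁ ⟨(), src e⟩ ⟨(), π (gen e) * src e⟩ ⟨e, rfl, rfl⟩
            rw [map_eq_homOfPair] at this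
            exact this
          apply Functor.hext
          · intro
            apply Unit.ext
          · refine ActionCategory.cases ?_
            intro b g
            have h1 : (F' g).left b = (C₂ g).left b := by rw [hC₂]
            have h2 : (C₂ g).left b = (C₁ g).left b := rfl
            exact heq_of_eq (by
              change (C₁ g).left b = (F' g).left b
              rw [h1, h2]) }
  let r : ActionCategory G K := (1 : K)
  haveI h1 : IsFreeGroup (End r) := IsFreeGroupoid.endIsFreeOfConnectedFree r
  let e : End r ≃* π.ker :=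
    { toFun := fun f => ⟨f.val, by
        have := f.property
        change π f.val * 1 = 1 at this
        rw [MonoidHom.mem_ker]
        simpa using this⟩
      invFun := fun n => ⟨n.1, by
        change π n.1 * 1 = 1
        rw [MonoidHom.mem_ker.1 n.2, one_mul]⟩
      left_inv := fun f => rfl
      right_inv := fun n => rfl
      map_mul' := fun f g => rfl }
  exact IsFreeGroup.ofMulEquiv e

end Groupoid

end Cfsg.Agent.Lib.FusionTheory.HNNFree
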