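import Cfsg.Agent.Lib.FusionTheory.HNNFree

set_option autoImplicit false

/-!
Iterated HNN extensions realizing an abstract family of partial isomorphisms of a group `T`.
-/

namespace Cfsg.Agent.Lib.FusionTheory.HNNFusion

universe u

open HNNExtension HNNWords HNNFree

section Conj

variable {T : Type*} [Group T] {G : Type*} [Group G]

/-- Abstract closure properties of a family of partial maps of `T`. -/
structure MorSys (Mor : Subgroup T → (T → T) → Prop) : Prop where
  comp : ∀ {R R' : Subgroup T} {ψ ψ' : T → T}, Mor R ψ → (∀ x ∈ R, ψ x ∈ R') → Mor R' ψ' →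
    Mor R (fun x => ψ' (ψ x))
  congr : ∀ {R : Subgroup T} {ψ ψ' : T → T}, Mor R ψ → (∀ x ∈ R, ψ x = ψ' x) → Mor R ψ'

/-- All conjugations of `G` between subgroups of `T` belong to the family. -/
def ConjGood (Mor : Subgroup T → (T → T) → Prop) (ι : T →* G) : Prop :=
  ∀ (g : G) (R : Subgroup T) (ψ : T → T), (∀ x ∈ R, ι (ψ x) = g * ι x * g⁻¹) → Mor R ψ

/-- The isomorphism between the images in `G`. -/
noncomputable def letterEquiv (ι : T →* G) (hι : Function.Injective ι) {P Q : Subgroup T}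
    (θ : P ≃* Q) : P.map ι ≃* Q.map ι :=
  (P.equivMapOfInjective ι hι).symm.trans (θ.trans (Q.equivMapOfInjective ι hι))

theorem letterEquiv_apply (ι : T →* G) (hι : Function.Injective ι) {P Q : Subgroup T}
    (θ : P ≃* Q) (x : P) (hx : ι x ∈ P.map ι) :
    ((letterEquiv ι hι θ ⟨ι x, hx⟩ : Q.map ι) : G) = ι (θ x) := by
  have h : (⟨ι x, hx⟩ : P.map ι) = P.equivMapOfInjective ι hι x := rfl
  rw [letterEquiv, MulEquiv.trans_apply, h, MulEquiv.symm_apply_apply]
  rfl

theorem letterEquiv_symm_apply (ι : T →* G) (hι : Function.Injective ι) {P Q : Subgroup T}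
    (θ : P ≃* Q) (y : Q) (hy : ι y ∈ Q.map ι) :
    (((letterEquiv ι hι θ).symm ⟨ι y, hy⟩ : P.map ι) : G) = ι (θ.symm y) := by
  have h : (⟨ι y, hy⟩ : Q.map ι) = letterEquiv ι hι θ
      (P.equivMapOfInjective ι hι (θ.symm y)) := by
    apply Subtype.ext
    rw [letterEquiv, MulEquiv.trans_apply, MulEquiv.symm_apply_apply, MulEquiv.trans_apply,
      MulEquiv.apply_symm_apply]
    rfl
  rw [h, MulEquiv.symm_apply_apply]
  rfl

variable {Mor : Subgroup T → (T → T) → Prop}

/-- One stable letter keeps the conjugations in the family. -/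
theorem conjGood_step (hM : MorSys Mor) {ι : T →* G} (hι : Function.Injective ι)
    (hG : ConjGood Mor ι) {P Q : Subgroup T} (θ : P ≃* Q) {θf θg : T → T}
    (hf : Mor P θf) (hθf : ∀ x : P, θf x = θ x) (hg : Mor Q θg)
    (hθg : ∀ y : Q, θg y = θ.symm y) :
    ConjGood Mor
      ((of : G →* HNNExtension G (P.map ι) (Q.map ι) (letterEquiv ι hι θ)).comp ι) := by
  let φ := letterEquiv ι hι θ
  let ι' : T →* HNNExtension G (P.map ι) (Q.map ι) φ := of.comp ι
  have hι'e : ∀ x, ι' x = of (ι x) := fun _ => rfl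
  have hι' : Function.Injective ι' := (of_injective φ).comp hι
  -- each letter moves a subgroup of `T` by a map of the family
  have hcase : ∀ u : ℤˣ, ∃ (P₁ : Subgroup T) (θ₁ : T → T),
      toSubgroup (P.map ι) (Q.map ι) (-u) = P₁.map ι ∧ Mor P₁ θ₁ ∧
      ∀ y ∈ P₁, (t ^ (-(u : ℤ)) * of (ι y) * t ^ (u : ℤ) :
        HNNExtension G (P.map ι) (Q.map ι) φ) = of (ι (θ₁ y)) := by
    intro u
    rcases Int.units_eq_one_or u with rfl | rfl
    · refine ⟨Q, θg, rfl, hg, ?_⟩
      intro y hy
      have h1 := equiv_symm_eq_conj (φ := φ) ⟨ι y, Subgroup.mem_map_of_mem ι hy⟩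
      have h2 := letterEquiv_symm_apply ι hι θ ⟨y, hy⟩ (Subgroup.mem_map_of_mem ι hy)
      rw [hθg ⟨y, hy⟩]
      simp only [Units.val_one, zpow_one, Int.reduceNeg, zpow_neg]
      rw [← h2]
      exact h1.symm
    · refine ⟨P, θf, rfl, hf, ?_⟩
      intro y hy
      have h1 := equiv_eq_conj (φ := φ) ⟨ι y, Subgroup.mem_map_of_mem ι hy⟩
      have h2 := letterEquiv_apply ι hι θ ⟨y, hy⟩ (Subgroup.mem_map_of_mem ι hy)
      rw [hθf ⟨y, hy⟩]
      simp only [Units.val_neg, Units.val_one, Int.reduceNeg, neg_neg, zpow_one, zpow_neg]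
      rw [← h2]
      exact h1.symm
  -- induction over reduced words
  have key : ∀ (l : List (ℤˣ × G)) (h : G) (hl : l.IsChain (Red (P.map ι) (Q.map ι)))
      (R : Subgroup T) (ψ : T → T),
      (∀ x ∈ R, ι' (ψ x) = ((mkW h l hl).prod φ)⁻¹ * ι' x * (mkW h l hl).prod φ) → Mor R ψ := by
    intro l
    induction l with
    | nil =>
      intro h hl R ψ hψ
      apply hG h⁻¹ R ψ
      intro x hx
      apply of_injective φ
      have := hψ x hx
      simp only [mkW_prod, lprod_nil, mul_one] at this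
      simp only [map_mul, map_inv, inv_inv]
      exact this
    | cons a l ih =>
      obtain ⟨u, g₁⟩ := a
      intro h hl R ψ hψ
      let w := mkW h ((u, g₁) :: l) hl
      have hlt : l.IsChain (Red (P.map ι) (Q.map ι)) := (List.isChain_cons.1 hl).2
      let w' := mkW g₁ l hlt
      have hww' : w.prod φ = of h * t ^ (u : ℤ) * w'.prod φ := by
        simp only [w, w', mkW_prod, lprod_cons, mul_assoc]
      obtain ⟨P₁, θ₁, hP₁, hθ₁, hθ₁c⟩ := hcase u
      -- the first conjugation lands in `P₁`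
      have hz : ∀ x ∈ R, ∃ y, y ∈ P₁ ∧ ι y = h⁻¹ * ι x * h := by
        intro x hx
        have hrel : of (ι x) * w.prod φ = w.prod φ * of (ι (ψ x)) := by
          have := hψ x hx
          change of (ι (ψ x)) = (w.prod φ)⁻¹ * of (ι x) * w.prod φ at this
          rw [this]; group
        have := head_conj_mem φ w (u := u) (g₁ := g₁) (l := l) rfl hrel
        rw [hP₁] at this
        obtain ⟨y, hy, hye⟩ := this
        exact ⟨y, hy, hye⟩
      choose! ψ₁ hψ₁m hψ₁e using hz
      have hm1 : Mor R ψ₁ := by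
        apply hG h⁻¹ R ψ₁
        intro x hx
        rw [hψ₁e x hx, inv_inv]
      have hm2 : Mor R (fun x => θ₁ (ψ₁ x)) := hM.comp hm1 hψ₁m hθ₁
      let c : HNNExtension G (P.map ι) (Q.map ι) φ := (of h * t ^ (u : ℤ))⁻¹
      have hψ₂ : ∀ x ∈ R, ι' (θ₁ (ψ₁ x)) = c * ι' x * c⁻¹ := by
        intro x hx
        rw [hι'e, ← hθ₁c _ (hψ₁m x hx), hψ₁e x hx, hι'e]
        simp only [c, map_mul, map_inv, mul_inv_rev, inv_inv, zpow_neg]
        group
      let R₂ : Subgroup T :=
        ((R.map ι').map (MulAut.conj c).toMonoidHom).comap ι'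
      have hR₂ : ∀ x ∈ R, θ₁ (ψ₁ x) ∈ R₂ := by
        intro x hx
        refine Subgroup.mem_comap.2 ?_
        rw [hψ₂ x hx]
        exact ⟨ι' x, Subgroup.mem_map_of_mem _ hx, rfl⟩
      have hR₂' : ∀ y ∈ R₂, ∃ z, ι' z = (w'.prod φ)⁻¹ * ι' y * w'.prod φ := by
        intro y hy
        obtain ⟨_, ⟨x, hx, rfl⟩, hxe⟩ := Subgroup.mem_comap.1 hy
        refine ⟨ψ x, ?_⟩
        rw [hψ x hx]
        change (MulAut.conj c) (ι' x) = ι' y at hxe
        rw [MulAut.conj_apply] at hxe
        rw [← hxe]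
        change _ = (w'.prod φ)⁻¹ * _ * w'.prod φ
        change ((w.prod φ)⁻¹ * ι' x * w.prod φ) = _
        rw [hww']
        simp only [c]
        group
      choose! ψ₃ hψ₃ using hR₂'
      have hm3 : Mor R₂ ψ₃ := by
        apply ih g₁ hlt R₂ ψ₃
        intro y hy
        exact hψ₃ y hy
      have hm4 := hM.comp hm2 hR₂ hm3
      refine hM.congr hm4 ?_
      intro x hx
      apply hι'
      rw [hψ₃ _ (hR₂ x hx), hψ₂ x hx, hψ x hx]
      change _ = ((w.prod φ)⁻¹ * ι' x * w.prod φ)
      rw [hww']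
      simp only [c]
      group
  intro g R ψ hψ
  obtain ⟨w, hw⟩ := exists_word φ g⁻¹
  refine key w.toList w.head w.chain R ψ ?_
  intro x hx
  have : (mkW w.head w.toList w.chain).prod φ = g⁻¹ := hw
  rw [this, inv_inv]
  exact hψ x hx

end Conj

section Stage

variable {T K : Type u} [Group T] [Group K] (reg : T →* K)
  (Mor : Subgroup T → (T → T) → Prop)

/-- The properties carried along the iterated HNN extension. -/
def StageProp (L : List (Subgroup T × (T → T) × K)) : Prop :=
  ∃ (G : Type u) (_ : Group G) (ι : T →* G) (π : G →* K),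
    Function.Injective ι ∧ (∀ x, π (ι x) = reg x) ∧ ConjGood Mor ι ∧
    (∀ H : Subgroup G, Finite H → ∃ g : G, ∀ h ∈ H, g * h * g⁻¹ ∈ ι.range) ∧
    (∃ (E : Type u) (gen : E → G) (src : E → K), FreeData π gen src) ∧
    ∀ j ∈ L, Mor j.1 j.2.1 → (∀ x ∈ j.1, j.2.2 * reg x * j.2.2⁻¹ = reg (j.2.1 x)) →
      ∃ g : G, π g = j.2.2 ∧ ∀ x ∈ j.1, ι (j.2.1 x) = g * ι x * g⁻¹

variable {reg Mor}

theorem stageProp_nil (hreg : Function.Injective reg)
    (hconj : ∀ (t : T) (R : Subgroup T) (ψ : T → T), (∀ x ∈ R, ψ x = t * x * t⁻¹) → Mor R ψ) :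
    StageProp reg Mor [] := by
  refine ⟨T, inferInstance, MonoidHom.id T, reg, Function.injective_id, fun _ => rfl, ?_, ?_, ?_,
    by simp⟩
  · intro g R ψ hψ
    exact hconj g R ψ hψ
  · intro H _
    exact ⟨1, fun h _ => ⟨h, by simp⟩⟩
  · exact exists_freeData_base reg hreg

/-- Adding one letter. -/
theorem stageProp_cons (hreg : Function.Injective reg) (hM : MorSys Mor)
    (hinv : ∀ {R R' : Subgroup T} {ψ ψ' : T → T}, Mor R ψ →
      (∀ y ∈ R', ψ' y ∈ R ∧ ψ (ψ' y) = y) → Mor R' ψ')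
    (j : Subgroup T × (T → T) × K) (L : List (Subgroup T × (T → T) × K))
    (hL : StageProp reg Mor L) : StageProp reg Mor (j :: L) := by
  classical
  obtain ⟨P, θf, k⟩ := j
  by_cases hv : Mor P θf ∧ ∀ x ∈ P, k * reg x * k⁻¹ = reg (θf x)
  · obtain ⟨hvm, hvk⟩ := hv
    obtain ⟨G, _, ι, π, hι, hπι, hgood, hfin, ⟨E, gen, src, hfree⟩, hreal⟩ := hL
    -- the homomorphism `P → T`
    have hmul : ∀ x y, x ∈ P → y ∈ P → θf (x * y) = θf x * θf y := by
      intro x y hx hy
      apply hreg
      rw [← hvk _ (P.mul_mem hx hy), map_mul, map_mul, ← hvk x hx, ← hvk y hy]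
      group
    have hinj : ∀ x y, x ∈ P → y ∈ P → θf x = θf y → x = y := by
      intro x y hx hy h
      have h1 : reg (θf x) = reg (θf y) := by rw [h]
      rw [← hvk x hx, ← hvk y hy] at h1
      apply hreg
      have h2 := mul_right_cancel h1
      exact mul_left_cancel h2
    let θh : P →* T :=
      { toFun := fun x => θf x
        map_one' := by
          have := hmul 1 1 P.one_mem P.one_mem
          simpa using this
        map_mul' := fun x y => hmul x y x.2 y.2 }
    have hθh : Function.Injective θh := fun x y h => Subtype.ext (hinj x y x.2 y.2 h)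
    let Q : Subgroup T := θh.range
    let θ : P ≃* Q := MonoidHom.ofInjective hθh
    have hθe : ∀ x : P, ((θ x : Q) : T) = θf x := fun x => rfl
    let θg : T → T := fun y => if h : y ∈ Q then ((θ.symm ⟨y, h⟩ : P) : T) else 1
    have hθg : ∀ y : Q, θg y = θ.symm y := by
      rintro ⟨y, hy⟩
      simp only [θg]
      rw [dif_pos hy]
    have hgm : Mor Q θg := by
      refine hinv hvm ?_
      rintro y hy
      refine ⟨?_, ?_⟩
      · rw [show θg y = θ.symm ⟨y, hy⟩ from hθg ⟨y, hy⟩]
        exact (θ.symm ⟨y, hy⟩).2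
      · rw [show θg y = θ.symm ⟨y, hy⟩ from hθg ⟨y, hy⟩, ← hθe]
        simp
    -- the stable letter
    let φ := letterEquiv ι hι θ
    have hk : ∀ a : P.map ι, k * π a = π (φ a) * k := by
      rintro ⟨_, x, hx, rfl⟩
      have h1 : ((φ ⟨ι x, Subgroup.mem_map_of_mem ι hx⟩ : Q.map ι) : G) = ι (θf x) := by
        exact letterEquiv_apply ι hι θ ⟨x, hx⟩ (Subgroup.mem_map_of_mem ι hx)
      change k * π (ι x) = π ((φ ⟨ι x, _⟩ : Q.map ι) : G) * k
      rw [h1, hπι, hπι, ← hvk x hx]
      group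
    have hA : ∀ a ∈ P.map ι, π a = 1 → a = 1 := by
      rintro _ ⟨x, hx, rfl⟩ h
      rw [hπι] at h
      have : x = 1 := hreg (by rw [h, map_one])
      rw [this, map_one]
    refine ⟨HNNExtension G (P.map ι) (Q.map ι) φ, inferInstance, of.comp ι, piExt φ π k hk,
      (of_injective φ).comp hι, ?_, ?_, ?_, ?_, ?_⟩
    · intro x
      simp [hπι]
    · exact conjGood_step hM hι hgood θ hvm (fun x => rfl) hgm hθg
    · intro H hH
      obtain ⟨c, hc⟩ := finite_conj_base φ H
      let H' : Subgroup G := (H.map (MulAut.conj c).toMonoidHom).comap of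
      have hH' : Finite H' := by
        let f : H' → H := fun x => ⟨c⁻¹ * of x.1 * c, by
          obtain ⟨h, hh, he⟩ := Subgroup.mem_comap.1 x.2
          have : h = c⁻¹ * of x.1 * c := by
            rw [← he]
            simp [MulAut.conj_apply, mul_assoc]
          rw [← this]; exact hh⟩
        refine Finite.of_injective f ?_
        intro x y hxy
        have := congrArg Subtype.val hxy
        simp only [f] at this
        have h2 := mul_left_cancel (mul_right_cancel this)
        exact Subtype.ext (of_injective φ h2)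
      obtain ⟨g, hg⟩ := hfin H' hH'
      refine ⟨of g * c, ?_⟩
      intro h hh
      obtain ⟨b, hb⟩ := hc h hh
      have hb' : of b = c * h * c⁻¹ := hb
      have hbm : b ∈ H' := by
        refine Subgroup.mem_comap.2 ?_
        rw [hb']
        exact ⟨h, hh, rfl⟩
      obtain ⟨x, hx⟩ := hg b hbm
      refine ⟨x, ?_⟩
      change of (ι x) = _
      rw [hx]
      simp only [map_mul, map_inv, hb', mul_inv_rev]
      group
    · refine ⟨_, _, _, freeData_step φ π k hk hA hfree⟩
    · intro j hj hjm hjk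
      rcases List.mem_cons.1 hj with rfl | hj
      · refine ⟨t, piExt_t φ π k hk, ?_⟩
        intro x hx
        have h1 := equiv_eq_conj (φ := φ) ⟨ι x, Subgroup.mem_map_of_mem ι hx⟩
        have h2 := letterEquiv_apply ι hι θ ⟨x, hx⟩ (Subgroup.mem_map_of_mem ι hx)
        change of (ι (θf x)) = _
        have h3 : ι (θf x) = ((φ ⟨ι x, Subgroup.mem_map_of_mem ι hx⟩ : Q.map ι) : G) := h2.symm
        rw [h3]
        exact h1
      · obtain ⟨g, hg1, hg2⟩ := hreal j hj hjm hjk
        refine ⟨of g, ?_, ?_⟩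
        · rw [piExt_of]; exact hg1
        · intro x hx
          change of (ι _) = of g * of (ι x) * (of g)⁻¹
          rw [hg2 x hx]
          simp
  · obtain ⟨G, i₁, ι, π, hι, hπι, hgood, hfin, hfree, hreal⟩ := hL
    refine ⟨G, i₁, ι, π, hι, hπι, hgood, hfin, hfree, ?_⟩
    intro j' hj' hjm hjk
    rcases List.mem_cons.1 hj' with rfl | hj'
    · exact absurd ⟨hjm, hjk⟩ hv
    · exact hreal j' hj' hjm hjk

end Stage

end Cfsg.Agent.Lib.FusionTheory.HNNFusion
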