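import Mathlib.GroupTheory.HNNExtension
import Mathlib.Tactic.Group
import Mathlib.GroupTheory.OrderOfElement

set_option autoImplicit false

/-!
Reduced words in an HNN extension: multiplying a reduced word on the right by a base element,
the conjugation lemma (from the uniqueness of letters of reduced words), cyclically reduced words
have infinite order, and finite subgroups are conjugate into the base group.
-/

namespace Cfsg.Agent.Lib.FusionTheory.HNNWords

open HNNExtension HNNExtension.NormalWord

variable {G : Type*} [Group G] {A B : Subgroup G} (φ : A ≃* B)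

/-- Product of a list of letters. -/
def lprod (l : List (ℤˣ × G)) : HNNExtension G A B φ :=
  (l.map (fun x => t ^ (x.1 : ℤ) * of x.2)).prod

@[simp] theorem lprod_nil : lprod φ ([] : List (ℤˣ × G)) = 1 := rfl

@[simp] theorem lprod_cons (a : ℤˣ × G) (l : List (ℤˣ × G)) :
    lprod φ (a :: l) = t ^ (a.1 : ℤ) * of a.2 * lprod φ l := by
  simp [lprod]

@[simp] theorem lprod_append (l l' : List (ℤˣ × G)) :
    lprod φ (l ++ l') = lprod φ l * lprod φ l' := by
  simp [lprod]

/-- The chain relation of reduced words. -/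
abbrev Red (A B : Subgroup G) : ℤˣ × G → ℤˣ × G → Prop :=
  fun a b => a.2 ∈ toSubgroup A B a.1 → a.1 = b.1

theorem prod_eq (w : ReducedWord G A B) : w.prod φ = of w.head * lprod φ w.toList := rfl

/-- The reduced word with given head and list. -/
def mkW (h : G) (l : List (ℤˣ × G)) (hl : l.IsChain (Red A B)) : ReducedWord G A B :=
  ⟨h, l, hl⟩

@[simp] theorem mkW_prod (h : G) (l : List (ℤˣ × G)) (hl : l.IsChain (Red A B)) :
    (mkW h l hl).prod φ = of h * lprod φ l := rfl

@[simp] theorem mkW_toList (h : G) (l : List (ℤˣ × G)) (hl : l.IsChain (Red A B)) :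
    (mkW h l hl).toList = l := rfl

@[simp] theorem mkW_head (h : G) (l : List (ℤˣ × G)) (hl : l.IsChain (Red A B)) :
    (mkW h l hl).head = h := rfl

theorem exists_word (x : HNNExtension G A B φ) : ∃ w : ReducedWord G A B, w.prod φ = x := by
  obtain ⟨d⟩ := TransversalPair.nonempty G A B
  exact ⟨(NormalWord.equiv φ d x).toReducedWord, (NormalWord.equiv φ d).symm_apply_apply x⟩

/-- Changing the last group element keeps a word reduced. -/
theorem chain_last (l₀ : List (ℤˣ × G)) (v : ℤˣ) (e e' : G)
    (h : (l₀ ++ [(v, e)]).IsChain (Red A B)) : (l₀ ++ [(v, e')]).IsChain (Red A B) := by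
  rw [List.isChain_append] at h ⊢
  refine ⟨h.1, by simp, ?_⟩
  intro a ha b hb
  have hb' : b = (v, e') := by simpa using hb.symm
  subst hb'
  exact h.2.2 a ha (v, e) (by simp)

/-- Conjugation lemma from the uniqueness of the letters. -/
theorem head_conj_mem (w : ReducedWord G A B) {u : ℤˣ} {g₁ : G} {l : List (ℤˣ × G)}
    (hw : w.toList = (u, g₁) :: l) {y y' : G}
    (hy : of y * w.prod φ = w.prod φ * of y') :
    w.head⁻¹ * y * w.head ∈ toSubgroup A B (-u) := by
  obtain ⟨l₀, ⟨v, e⟩, hl⟩ : ∃ l₀ a, w.toList = l₀ ++ [a] := by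
    rcases List.eq_nil_or_concat' w.toList with h | ⟨l₀, a, h⟩
    · rw [h] at hw; simp at hw
    · exact ⟨l₀, a, h⟩
  have hc : (l₀ ++ [(v, e)]).IsChain (Red A B) := by
    rw [← hl]; exact w.chain
  let w₁ : ReducedWord G A B := mkW (y * w.head) w.toList w.chain
  let w₂ : ReducedWord G A B := mkW w.head (l₀ ++ [(v, e * y')]) (chain_last _ _ _ _ hc)
  have hp : w₁.prod φ = w₂.prod φ := by
    have h1 : w₁.prod φ = of y * w.prod φ := by
      change of (y * w.head) * lprod φ w.toList = of y * (of w.head * lprod φ w.toList)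
      simp [mul_assoc]
    have h2 : w₂.prod φ = w.prod φ * of y' := by
      change of w.head * lprod φ (l₀ ++ [(v, e * y')]) =
        (of w.head * lprod φ w.toList) * of y'
      simp [hl, mul_assoc]
    rw [h1, h2, hy]
  have := (ReducedWord.map_fst_eq_and_of_prod_eq φ hp).2 u (by simp [w₁, hw])
  have h3 := (toSubgroup A B (-u)).inv_mem this
  change ((y * w.head)⁻¹ * w.head)⁻¹ ∈ _ at h3
  convert h3 using 1
  group

/-- Words with a non-empty list are not in the base group. -/
theorem not_mem_range (w : ReducedWord G A B) (hw : w.toList ≠ []) :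
    w.prod φ ∉ (of.range : Subgroup (HNNExtension G A B φ)) := fun h =>
  hw (ReducedWord.toList_eq_nil_of_mem_of_range φ w h)

/-- A cyclically reduced word has infinite order. -/
theorem pow_ne_one (h : G) {l₀ : List (ℤˣ × G)} {v : ℤˣ} {e : G} {u₁ : ℤˣ} {g₁ : G}
    {l₁ : List (ℤˣ × G)} (hl : l₀ ++ [(v, e)] = (u₁, g₁) :: l₁)
    (hc : (l₀ ++ [(v, e)]).IsChain (Red A B))
    (hcyc : e * h ∈ toSubgroup A B v → v = u₁) (m : ℕ) :
    (of h * lprod φ (l₀ ++ [(v, e)]) : HNNExtension G A B φ) ^ (m + 1) ≠ 1 := by
  intro hm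
  have key : ∀ m : ℕ, ∃ k₀ : List (ℤˣ × G), (k₀ ++ [(v, e)]).IsChain (Red A B) ∧
      of h * lprod φ (k₀ ++ [(v, e)]) =
        (of h * lprod φ (l₀ ++ [(v, e)]) : HNNExtension G A B φ) ^ (m + 1) := by
    intro m
    induction m with
    | zero => exact ⟨l₀, hc, by simp⟩
    | succ m ih =>
      obtain ⟨k₀, hk, hk2⟩ := ih
      refine ⟨k₀ ++ [(v, e * h)] ++ l₀, ?_, ?_⟩
      · have h1 := chain_last k₀ v e (e * h) hk
        have : k₀ ++ [(v, e * h)] ++ l₀ ++ [(v, e)] = (k₀ ++ [(v, e * h)]) ++ (l₀ ++ [(v, e)]) := by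
          simp
        rw [this, List.isChain_append]
        refine ⟨h1, hc, ?_⟩
        intro a ha b hb
        have ha' : a = (v, e * h) := by
          simpa using ha.symm
        subst ha'
        rw [hl] at hb
        have hb' : b = (u₁, g₁) := by simpa using hb.symm
        subst hb'
        exact hcyc
      · rw [pow_succ, ← hk2]
        have : k₀ ++ [(v, e * h)] ++ l₀ ++ [(v, e)] = (k₀ ++ [(v, e * h)]) ++ (l₀ ++ [(v, e)]) := by
          simp
        rw [this, lprod_append]
        simp [mul_assoc]
  obtain ⟨k₀, hk, hk2⟩ := key m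
  rw [hm] at hk2
  have := not_mem_range φ (mkW h _ hk) (by simp)
  apply this
  rw [mkW_prod, hk2]
  exact one_mem _

theorem of_eq_conj_of_mem (u : ℤˣ) {a : G} (ha : a ∈ toSubgroup A B u) :
    ∃ b ∈ toSubgroup A B (-u),
      (t ^ (u : ℤ) * of a * t ^ (-(u : ℤ)) : HNNExtension G A B φ) = of b := by
  rcases Int.units_eq_one_or u with rfl | rfl
  · refine ⟨(φ ⟨a, ha⟩ : B), (φ ⟨a, ha⟩).2, ?_⟩
    have := equiv_eq_conj (φ := φ) ⟨a, ha⟩
    simp only [Units.val_one, zpow_one, Int.reduceNeg, zpow_neg]
    exact this.symm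
  · refine ⟨(φ.symm ⟨a, ha⟩ : A), (φ.symm ⟨a, ha⟩).2, ?_⟩
    have := equiv_symm_eq_conj (φ := φ) ⟨a, ha⟩
    simp only [Units.val_neg, Units.val_one, Int.reduceNeg, zpow_neg, zpow_one, inv_inv]
    exact this.symm

/-- Reduced word with at most as many letters. -/
theorem exists_reduced_le (l : List (ℤˣ × G)) (h : G) :
    ∃ w : ReducedWord G A B, w.prod φ = of h * lprod φ l ∧ w.toList.length ≤ l.length := by
  induction l generalizing h with
  | nil => exact ⟨mkW h [] List.isChain_nil, by simp, by simp⟩
  | cons a l ih =>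
    obtain ⟨u, g⟩ := a
    obtain ⟨w', hw', hlen⟩ := ih g
    rcases hl' : w'.toList with _ | ⟨⟨u', g''⟩, l''⟩
    · refine ⟨mkW h [(u, w'.head)] (List.isChain_singleton _), ?_, by simp⟩
      have : of g * lprod φ l = of w'.head := by
        rw [← hw', prod_eq, hl']; simp
      simp only [mkW_prod, lprod_cons, lprod_nil, mul_one, mul_assoc]
      rw [this]
    · have hchain := w'.chain
      rw [hl'] at hchain
      by_cases hred : w'.head ∈ toSubgroup A B u → u = u'
      · refine ⟨mkW h ((u, w'.head) :: (u', g'') :: l'') ?_, ?_, ?_⟩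
        · exact List.isChain_cons_cons.2 ⟨hred, hchain⟩
        · have : of g * lprod φ l = of w'.head * lprod φ ((u', g'') :: l'') := by
            rw [← hw', prod_eq, hl']
          simp only [mkW_prod, lprod_cons, mul_assoc] at this ⊢
          rw [this]
        · have : ((u', g'') :: l'').length ≤ l.length := by rw [← hl']; exact hlen
          simpa using this
      · push Not at hred
        obtain ⟨hmem, hne⟩ := hred
        have hu' : u' = -u := by
          rcases Int.units_eq_one_or u with rfl | rfl <;>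
          rcases Int.units_eq_one_or u' with rfl | rfl <;> simp_all
        subst hu'
        obtain ⟨b, -, hb⟩ := of_eq_conj_of_mem φ u hmem
        refine ⟨mkW (h * b * g'') l'' (List.isChain_cons.1 hchain).2, ?_, ?_⟩
        · have : of g * lprod φ l = of w'.head * lprod φ ((-u, g'') :: l'') := by
            rw [← hw', prod_eq, hl']
          simp only [mkW_prod, lprod_cons, map_mul, mul_assoc] at this ⊢
          rw [this]
          have hb' : of b = (t ^ (u : ℤ) * (of w'.head * t ^ (-(u : ℤ))) :
              HNNExtension G A B φ) := by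
            rw [← hb, mul_assoc]
          rw [hb']
          simp [mul_assoc]
        · have : ((-u, g'') :: l'').length ≤ l.length := by rw [← hl']; exact hlen
          simp only [List.length_cons, mkW_toList] at this ⊢
          omega

/-- Lemma on adding one element to a set conjugated into the base group. -/
theorem add_to_base {H : Subgroup (HNNExtension G A B φ)} [Finite H]
    {X : Set (HNNExtension G A B φ)} (hX : X ⊆ H) (n : ℕ) :
    ∀ (c : HNNExtension G A B φ) (hc : ∀ x ∈ X, c * x * c⁻¹ ∈ (of.range : Subgroup _))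
      (h : HNNExtension G A B φ) (hh : h ∈ H) (w : ReducedWord G A B)
      (hw : w.prod φ = c * h * c⁻¹) (hn : w.toList.length ≤ n),
      ∃ c' : HNNExtension G A B φ, (∀ x ∈ X, c' * x * c'⁻¹ ∈ (of.range : Subgroup _)) ∧
        c' * h * c'⁻¹ ∈ (of.range : Subgroup _) := by
  induction n using Nat.strong_induction_on with
  | _ n ih =>
    intro c hc h hh w hw hn
    rcases hl : w.toList with _ | ⟨⟨u₁, g₁⟩, l₁⟩
    · refine ⟨c, hc, ?_⟩
      rw [← hw, prod_eq, hl]
      exact ⟨w.head, by simp⟩
    · obtain ⟨l₀, ⟨v, e⟩, hl₀⟩ : ∃ l₀ a, w.toList = l₀ ++ [a] := by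
        rcases List.eq_nil_or_concat' w.toList with h' | ⟨l₀, a, h'⟩
        · rw [h'] at hl; simp at hl
        · exact ⟨l₀, a, h'⟩
      have hc' : (l₀ ++ [(v, e)]).IsChain (Red A B) := by rw [← hl₀]; exact w.chain
      have hcycl : l₀ ++ [(v, e)] = (u₁, g₁) :: l₁ := by rw [← hl₀, hl]
      -- finite order of all elements of `c H c⁻¹`
      have hfin : ∀ z ∈ H, ∃ m : ℕ, (c * z * c⁻¹) ^ (m + 1) = 1 := by
        intro z hz
        have : IsOfFinOrder (⟨z, hz⟩ : H) := isOfFinOrder_of_finite _
        obtain ⟨m, hm, hm1⟩ := this.exists_pow_eq_one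
        obtain ⟨k, rfl⟩ : ∃ k, m = k + 1 := ⟨m - 1, by omega⟩
        refine ⟨k, ?_⟩
        have h2 : z ^ (k + 1) = 1 := by
          have := congrArg Subtype.val hm1
          simpa using this
        rw [conj_pow, h2]; simp
      -- the pinch for any base element `f` with `f * (c h c⁻¹) ∈ c H c⁻¹`.
      have pinch : ∀ f₀ : G, (∃ z ∈ H, c * z * c⁻¹ = of f₀ * w.prod φ) →
          e * (f₀ * w.head) ∈ toSubgroup A B v ∧ v ≠ u₁ := by
        rintro f₀ ⟨z, hz, hzeq⟩
        by_contra hcon
        have hcyc : e * (f₀ * w.head) ∈ toSubgroup A B v → v = u₁ := by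
          intro hm
          by_contra hne
          exact hcon ⟨hm, hne⟩
        obtain ⟨m, hm⟩ := hfin z hz
        refine pow_ne_one φ (f₀ * w.head) hcycl hc' hcyc m ?_
        rw [← hm, hzeq, prod_eq, hl₀]
        simp [mul_assoc]
      have h1 := pinch 1 ⟨h, hh, by simp [hw]⟩
      have hv : u₁ = -v := by
        rcases Int.units_eq_one_or v with rfl | rfl <;>
        rcases Int.units_eq_one_or u₁ with rfl | rfl <;> simp_all
      have hm1 : e * w.head ∈ toSubgroup A B v := by simpa using h1.1
      -- new conjugator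
      let d : HNNExtension G A B φ := t ^ (v : ℤ) * of e
      have hX' : ∀ x ∈ X, (d * c) * x * (d * c)⁻¹ ∈ (of.range : Subgroup _) := by
        intro x hx
        obtain ⟨f₀, hf₀⟩ := hc x hx
        have hf : of f₀ = c * x * c⁻¹ := hf₀
        have h2 := pinch f₀ ⟨x * h, H.mul_mem (hX hx) hh, by
          rw [hw, hf]; group⟩
        have h3 : e * f₀ * e⁻¹ ∈ toSubgroup A B v := by
          have := (toSubgroup A B v).mul_mem h2.1 ((toSubgroup A B v).inv_mem hm1)
          convert this using 1
          group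
        obtain ⟨b, -, hb⟩ := of_eq_conj_of_mem φ v h3
        refine ⟨b, ?_⟩
        change of b = _
        rw [← hb]
        have e1 : (d * c) * x * (d * c)⁻¹ = d * (c * x * c⁻¹) * d⁻¹ := by group
        rw [e1, ← hf]
        simp only [d, map_mul, map_inv, zpow_neg, mul_inv_rev]
        group
      -- the new length is at most `n - 2`
      obtain ⟨l₂, hl₁₂, hlen₂⟩ : ∃ l₂ : List (ℤˣ × G), l₀ = (u₁, g₁) :: l₂ ∧
          l₁ = l₂ ++ [(v, e)] := by
        rcases l₀ with _ | ⟨a, l₂⟩
        · simp only [List.nil_append, List.cons.injEq, Prod.mk.injEq] at hcycl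
          exact absurd hcycl.1.1.symm (by simpa using h1.2.symm)
        · simp only [List.cons_append, List.cons.injEq] at hcycl
          exact ⟨l₂, by rw [hcycl.1], hcycl.2.symm⟩
      obtain ⟨b, -, hb⟩ := of_eq_conj_of_mem φ v hm1
      obtain ⟨w', hw', hwlen⟩ := exists_reduced_le φ l₂ (b * g₁)
      have hw'' : w'.prod φ = (d * c) * h * (d * c)⁻¹ := by
        rw [hw']
        have e1 : (d * c) * h * (d * c)⁻¹ = d * (c * h * c⁻¹) * d⁻¹ := by group
        rw [e1, ← hw, prod_eq, hl₀, hl₁₂]
        simp only [d, lprod_append, lprod_cons, lprod_nil, mul_one, map_mul, hv]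
        have hb' : of b = (t ^ (v : ℤ) * (of e * of w.head) * t ^ (-(v : ℤ)) :
            HNNExtension G A B φ) := by
          rw [← hb]; simp
        rw [hb']
        simp only [Units.val_neg, zpow_neg]
        group
      have hlen : w'.toList.length < n := by
        have h2 : w.toList.length = l₂.length + 2 := by
          rw [hl₀, hl₁₂]; simp
        omega
      exact ih _ hlen (d * c) hX' h hh w' hw'' le_rfl

/-- Finite subgroups of an HNN extension are conjugate into the base group. -/
theorem finite_conj_base (H : Subgroup (HNNExtension G A B φ)) [Finite H] :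
    ∃ c : HNNExtension G A B φ, ∀ h ∈ H, c * h * c⁻¹ ∈ (of.range : Subgroup _) := by
  have hfin : (H : Set (HNNExtension G A B φ)).Finite := Set.toFinite _
  have key : ∀ X : Set (HNNExtension G A B φ), X.Finite → X ⊆ H →
      ∃ c : HNNExtension G A B φ, ∀ x ∈ X, c * x * c⁻¹ ∈ (of.range : Subgroup _) := by
    intro X hX
    induction X, hX using Set.Finite.induction_on with
    | empty => intro _; exact ⟨1, by simp⟩
    | @insert a s _ _ ih =>
      intro hs
      obtain ⟨c, hc⟩ := ih (fun x hx => hs (Set.mem_insert_of_mem _ hx))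
      obtain ⟨w, hw⟩ := exists_word φ (c * a * c⁻¹)
      obtain ⟨c', h1, h2⟩ := add_to_base φ (fun x hx => hs (Set.mem_insert_of_mem _ hx))
        w.toList.length c hc a (hs (Set.mem_insert _ _)) w hw le_rfl
      refine ⟨c', ?_⟩
      intro x hx
      rcases hx with rfl | hx
      · exact h2
      · exact h1 x hx
  obtain ⟨c, hc⟩ := key H hfin subset_rfl
  exact ⟨c, fun h hh => hc h hh⟩

end Cfsg.Agent.Lib.FusionTheory.HNNWords
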