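import Mathlib.GroupTheory.Sylow
import Mathlib.GroupTheory.Index
import Mathlib.GroupTheory.PGroup
import Mathlib.Algebra.BigOperators.Intervals

/-!
# Products over orbits of an abelian group of automorphisms

The counting core of a short proof of Glauberman's theorem on the centre of `N(J(S))`.
(helper93)
-/

set_option autoImplicit false

namespace Cfsg.Agent.Lib.FusionTheory.OrbitProd

open Finset

variable {K : Type*} [CommGroup K] {p : ℕ}

/-- Products over a set stable under translation by an element of order `p`. -/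
theorem prod_of_translation [DecidableEq K] {M : Type*} [CommMonoid M] {e : K} (he : orderOf e = p)
    (hp : 0 < p) (f : K → M) (c : M) :
    ∀ O : Finset K, (∀ y ∈ O, y * e ∈ O) → (∀ y ∈ O, ∏ i ∈ range p, f (y * e ^ i) = c) →
      ∃ m, O.card = p * m ∧ ∏ y ∈ O, f y = c ^ m := by
  intro O
  induction O using Finset.strongInduction with
  | H O ih =>
    intro hO hf
    by_cases hne : O.Nonempty
    · obtain ⟨y, hy⟩ := hne
      set C : Finset K := (range p).image (fun i => y * e ^ i) with hC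
      have hCO : C ⊆ O := by
        intro w hw
        obtain ⟨i, -, rfl⟩ := Finset.mem_image.1 hw
        clear hw
        induction i with
        | zero => simpa using hy
        | succ i ih' =>
          have := hO _ ih'
          rwa [mul_assoc, ← pow_succ] at this
      have hinj : Set.InjOn (fun i => y * e ^ i) (range p : Set ℕ) := by
        intro i hi j hj hij
        have h1 : e ^ i = e ^ j := mul_left_cancel hij
        have hi' : i < orderOf e := by rw [he]; simpa using hi
        have hj' : j < orderOf e := by rw [he]; simpa using hj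
        exact pow_injOn_Iio_orderOf (by simpa using hi') (by simpa using hj') h1
      have hCcard : C.card = p := by
        rw [hC, Finset.card_image_of_injOn hinj, card_range]
      have hprodC : ∏ w ∈ C, f w = c := by
        rw [hC, Finset.prod_image hinj]
        exact hf y hy
      have hCe : ∀ w, w * e ∈ C → w ∈ C := by
        intro w hw
        obtain ⟨i, hi, h⟩ := Finset.mem_image.1 hw
        have hi' : i < p := by simpa using hi
        rcases i with _ | i
        · refine Finset.mem_image.2 ⟨p - 1, by simp [hp], ?_⟩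
          have h2 : w * e = y := by simpa using h.symm
          have h3 : e ^ (p - 1) * e = 1 := by
            rw [← pow_succ, Nat.sub_add_cancel hp, ← he, pow_orderOf_eq_one]
          calc y * e ^ (p - 1) = w * (e ^ (p - 1) * e) := by
                rw [← h2]
                rw [mul_assoc, mul_comm e]
            _ = w := by rw [h3, mul_one]
        · refine Finset.mem_image.2 ⟨i, by simp; omega, ?_⟩
          have h2 : (y * e ^ i) * e = w * e := by
            rw [mul_assoc, ← pow_succ]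
            exact h
          exact mul_right_cancel h2
      have hlt : O \ C ⊂ O := by
        refine Finset.sdiff_ssubset hCO ?_
        exact ⟨y * e ^ 0, Finset.mem_image.2 ⟨0, by simp [hp], rfl⟩⟩
      obtain ⟨m, hm1, hm2⟩ := ih _ hlt (by
        intro w hw
        obtain ⟨h1, h2⟩ := Finset.mem_sdiff.1 hw
        exact Finset.mem_sdiff.2 ⟨hO w h1, fun h3 => h2 (hCe w h3)⟩) (fun w hw => hf w (Finset.mem_sdiff.1 hw).1)
      refine ⟨m + 1, ?_, ?_⟩
      · have := Finset.card_sdiff_add_card_eq_card hCO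
        rw [hm1, hCcard] at this
        rw [← this]
        ring
      · rw [← Finset.prod_sdiff hCO, hm2, hprodC, pow_succ]
    · rw [Finset.not_nonempty_iff_eq_empty] at hne
      subst hne
      exact ⟨0, by simp, by simp⟩

section action

variable {Γ : Type*} [Group Γ] (ρ : Γ →* MulAut K) (A : Subgroup Γ)

/-- The orbit of `x` under `A`, as a finite set. -/
noncomputable def orb [Finite K] (x : K) : Finset K :=
  (Set.toFinite {y : K | ∃ a ∈ A, y = ρ a x}).toFinset

variable {ρ A}

theorem mem_orb [Finite K] {x y : K} : y ∈ orb ρ A x ↔ ∃ a ∈ A, y = ρ a x := by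
  simp [orb]

theorem self_mem_orb [Finite K] (x : K) : x ∈ orb ρ A x :=
  mem_orb.2 ⟨1, A.one_mem, by simp⟩

/-- Products over an `A`-invariant set decompose along orbits. -/
theorem prod_invariant [Finite K] [DecidableEq K] {M : Type*} [CommMonoid M] (f : K → M) :
    ∀ D : Finset K, (∀ a ∈ A, ∀ x ∈ D, ρ a x ∈ D) → (∀ x ∈ D, ∏ y ∈ orb ρ A x, f y = 1) →
      ∏ x ∈ D, f x = 1 := by
  intro D
  induction D using Finset.strongInduction with
  | H D ih =>
    intro hinv horb
    by_cases hne : D.Nonempty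
    · obtain ⟨x, hx⟩ := hne
      have hsub : orb ρ A x ⊆ D := by
        intro y hy
        obtain ⟨a, ha, rfl⟩ := mem_orb.1 hy
        exact hinv a ha x hx
      have hlt : D \ orb ρ A x ⊂ D := Finset.sdiff_ssubset hsub ⟨x, self_mem_orb x⟩
      have h1 := ih _ hlt (by
        intro a ha y hy
        obtain ⟨h1, h2⟩ := Finset.mem_sdiff.1 hy
        refine Finset.mem_sdiff.2 ⟨hinv a ha y h1, fun h3 => h2 ?_⟩
        obtain ⟨b, hb, e⟩ := mem_orb.1 h3
        refine mem_orb.2 ⟨a⁻¹ * b, A.mul_mem (A.inv_mem ha) hb, ?_⟩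
        rw [map_mul, MulAut.mul_apply, ← e, map_inv, MulAut.inv_apply_self])
        (fun y hy => horb y (Finset.mem_sdiff.1 hy).1)
      rw [← Finset.prod_sdiff hsub, h1, horb x hx, mul_one]
    · rw [Finset.not_nonempty_iff_eq_empty] at hne
      subst hne
      simp

/-- An orbit is stable under translation by an element of order `p` fixed by `A`. -/
theorem exists_translation [Finite K] [Fact p.Prime] (hKp : IsPGroup p K) {x : K} {a : Γ} (ha : a ∈ A)
    (hne : ρ a x ≠ x) (hfix : ∀ b ∈ A, ρ b (x⁻¹ * ρ a x) = x⁻¹ * ρ a x) :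
    ∃ e : K, orderOf e = p ∧ (∀ b ∈ A, ρ b e = e) ∧ ∀ y ∈ orb ρ A x, y * e ∈ orb ρ A x := by
  obtain ⟨e₀, he₀⟩ : ∃ e₀, e₀ = x⁻¹ * ρ a x := ⟨_, rfl⟩
  have hp := (Fact.out : p.Prime)
  have he₀1 : e₀ ≠ 1 := by
    rw [he₀]
    intro h
    apply hne
    exact (inv_mul_eq_one.1 h).symm
  have hord : p ∣ orderOf e₀ := by
    obtain ⟨k, hk⟩ := hKp e₀
    have h1 : orderOf e₀ ∣ p ^ k := orderOf_dvd_of_pow_eq_one hk
    obtain ⟨j, -, hj⟩ := (Nat.dvd_prime_pow hp).1 h1
    rw [hj]
    rcases j with _ | j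
    · rw [pow_zero, orderOf_eq_one_iff] at hj
      exact absurd hj he₀1
    · exact dvd_pow_self p (Nat.succ_ne_zero j)
  have hpos : orderOf e₀ ≠ 0 := (orderOf_pos e₀).ne'
  refine ⟨e₀ ^ (orderOf e₀ / p), orderOf_pow_orderOf_div hpos hord, fun b hb => ?_, fun y hy => ?_⟩
  · rw [map_pow, he₀, hfix b hb]
  · have hpw : ∀ k : ℕ, ρ (a ^ k) x = x * e₀ ^ k := by
      intro k
      induction k with
      | zero => simp
      | succ k ih =>
        rw [pow_succ', map_mul, MulAut.mul_apply, ih, map_mul, map_pow, he₀, hfix a ha, pow_succ']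
        simp [mul_assoc]
    obtain ⟨b, hb, rfl⟩ := mem_orb.1 hy
    refine mem_orb.2 ⟨b * a ^ (orderOf e₀ / p), A.mul_mem hb (A.pow_mem ha _), ?_⟩
    rw [map_mul, MulAut.mul_apply, hpw, map_mul, map_pow, he₀, hfix b hb]

/-- `z` is fixed as soon as a power `z ^ n` with `n` prime to `p` is. -/
theorem fixed_of_pow [Finite K] [Fact p.Prime] (hKp : IsPGroup p K) {z : K} {g : Γ} {n : ℕ}
    (hn : n.Coprime p) (h : ρ g (z ^ n) = z ^ n) : ρ g z = z := by
  have h1 : (ρ g z * z⁻¹) ^ n = 1 := by
    rw [mul_pow, inv_pow, ← map_pow, h, mul_inv_cancel]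
  obtain ⟨k, hk⟩ := hKp (ρ g z * z⁻¹)
  have h2 : orderOf (ρ g z * z⁻¹) ∣ n := orderOf_dvd_of_pow_eq_one h1
  have h3 : orderOf (ρ g z * z⁻¹) ∣ p ^ k := orderOf_dvd_of_pow_eq_one hk
  have h4 : orderOf (ρ g z * z⁻¹) = 1 :=
    Nat.eq_one_of_dvd_coprimes (hn.pow_right k) h2 h3
  rw [orderOf_eq_one_iff] at h4
  exact mul_inv_eq_one.1 h4

/-- The product over the full orbit is fixed. -/
theorem prod_orb_fixed [Finite K] [DecidableEq K] (x : K) (g : Γ) :
    ρ g (∏ y ∈ orb ρ (⊤ : Subgroup Γ) x, y) = ∏ y ∈ orb ρ (⊤ : Subgroup Γ) x, y := by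
  rw [map_prod]
  refine Finset.prod_bij (fun y _ => ρ g y) ?_ ?_ ?_ ?_
  · intro y hy
    obtain ⟨b, -, rfl⟩ := mem_orb.1 hy
    exact mem_orb.2 ⟨g * b, trivial, by rw [map_mul, MulAut.mul_apply]⟩
  · intro a _ b _ h
    exact (ρ g).injective h
  · intro y hy
    obtain ⟨b, -, rfl⟩ := mem_orb.1 hy
    refine ⟨ρ (g⁻¹ * b) x, mem_orb.2 ⟨_, trivial, rfl⟩, ?_⟩
    rw [map_mul, MulAut.mul_apply, map_inv, MulAut.apply_inv_self]
  · intro y _
    rfl

/-- The order of the full orbit of `x` divides the index of any subgroup fixing `x`. -/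
theorem card_orb_dvd [Finite K] [Finite Γ] {x : K} {U : Subgroup Γ} (hU : ∀ u ∈ U, ρ u x = x) :
    (orb ρ (⊤ : Subgroup Γ) x).card ∣ U.index := by
  classical
  let St : Subgroup Γ :=
    { carrier := {g | ρ g x = x}
      mul_mem' := by
        intro a b ha hb
        show ρ (a * b) x = x
        rw [map_mul, MulAut.mul_apply, show ρ b x = x from hb, show ρ a x = x from ha]
      one_mem' := by
        show ρ 1 x = x
        simp
      inv_mem' := by
        intro a ha
        show ρ a⁻¹ x = x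
        have ha' : ρ a x = x := ha
        conv_lhs => rw [← ha']
        rw [map_inv, MulAut.inv_apply_self] }
  have hUS : U ≤ St := hU
  have h1 : St.index ∣ U.index := Subgroup.index_dvd_of_le hUS
  have h2 : (orb ρ (⊤ : Subgroup Γ) x).card = St.index := by
    let F : Γ ⧸ St → K := Quotient.lift (fun g : Γ => ρ g x) (by
      intro a b hab
      have h : a⁻¹ * b ∈ St := QuotientGroup.leftRel_apply.1 hab
      have h' : ρ (a⁻¹ * b) x = x := h
      show ρ a x = ρ b x
      conv_lhs => rw [← h']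
      rw [map_mul, MulAut.mul_apply, map_inv, MulAut.apply_inv_self])
    have hF : ∀ g : Γ, F (g : Γ ⧸ St) = ρ g x := fun _ => rfl
    have hinj : Function.Injective F := by
      intro a b
      induction a using QuotientGroup.induction_on with
      | H a =>
        induction b using QuotientGroup.induction_on with
        | H b =>
          intro h
          rw [hF, hF] at h
          refine QuotientGroup.eq.2 ?_
          show ρ (a⁻¹ * b) x = x
          rw [map_mul, MulAut.mul_apply, ← h, map_inv, MulAut.inv_apply_self]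
    have hrange : Set.range F = (orb ρ (⊤ : Subgroup Γ) x : Set K) := by
      ext y
      constructor
      · rintro ⟨a, rfl⟩
        induction a using QuotientGroup.induction_on with
        | H a => exact mem_orb.2 ⟨a, trivial, rfl⟩
      · intro hy
        obtain ⟨a, -, rfl⟩ := mem_orb.1 hy
        exact ⟨(a : Γ ⧸ St), rfl⟩
    have h3 : Nat.card (Γ ⧸ St) = Nat.card (Set.range F) := Nat.card_congr (Equiv.ofInjective F hinj)
    rw [hrange, Nat.card_coe_set_eq, Set.ncard_coe_finset] at h3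
    exact h3.symm
  rw [h2]
  exact h1

/-- **Mode 1.** `p` odd. -/
theorem fix_odd [Finite K] [Finite Γ] [hp : Fact p.Prime] (hp2 : p ≠ 2) (hKp : IsPGroup p K) {z : K}
    (hfix : ∀ g : Γ, (∀ a ∈ A, ρ a (ρ g z) = ρ g z) → ρ g z = z)
    (hstab : ∀ x : K, (∃ a ∈ A, ρ a x ≠ x) → ∃ a ∈ A, ρ a x ≠ x ∧ ∀ b ∈ A, ρ b (x⁻¹ * ρ a x) = x⁻¹ * ρ a x)
    (hpow : ∀ g : Γ, (ρ g z) ^ p = z ^ p) {U : Subgroup Γ} (hU : ∀ u ∈ U, ρ u z = z) (hUi : U.index.Coprime p)
    (g : Γ) : ρ g z = z := by
  classical
  have hp' := hp.out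
  set D := orb ρ (⊤ : Subgroup Γ) z with hD
  have hDinv : ∀ a ∈ A, ∀ x ∈ D, ρ a x ∈ D := by
    intro a _ x hx
    obtain ⟨b, -, rfl⟩ := mem_orb.1 hx
    exact mem_orb.2 ⟨a * b, trivial, by rw [map_mul, MulAut.mul_apply]⟩
  have h1 : ∏ x ∈ D, (x * z⁻¹) = 1 := by
    refine prod_invariant (A := A) (ρ := ρ) _ D hDinv ?_
    intro x hx
    obtain ⟨b, -, rfl⟩ := mem_orb.1 hx
    by_cases hf : ∃ a ∈ A, ρ a (ρ b z) ≠ ρ b z
    · obtain ⟨a, ha, hne, hfx⟩ := hstab _ hf
      obtain ⟨e, he, -, het⟩ := exists_translation hKp ha hne hfx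
      have hep : e ^ p = 1 := by rw [← he]; exact pow_orderOf_eq_one e
      obtain ⟨m, -, hm⟩ := prod_of_translation he hp'.pos (fun y => y * z⁻¹) 1 _ het (by
        intro y hy
        obtain ⟨c, -, rfl⟩ := mem_orb.1 hy
        have hy2 : (ρ c (ρ b z)) ^ p = z ^ p := by
          rw [← MulAut.mul_apply, ← map_mul]
          exact hpow _
        have e1 : ∀ i, ρ c (ρ b z) * e ^ i * z⁻¹ = (ρ c (ρ b z) * z⁻¹) * e ^ i := by
          intro i
          rw [mul_right_comm]
        simp only [e1]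
        rw [Finset.prod_mul_distrib, Finset.prod_pow_eq_pow_sum, Finset.prod_const, card_range, mul_pow, hy2,
          inv_pow, mul_inv_cancel, one_mul]
        obtain ⟨q, hq⟩ : 2 ∣ p - 1 := by
          have := hp'.eq_two_or_odd
          omega
        have hs : ∑ i ∈ range p, i = p * q := by
          have h3 := Finset.sum_range_id_mul_two p
          rw [hq] at h3
          have hq0 : 0 < 2 := by norm_num
          nlinarith
        rw [hs, pow_mul, hep, one_pow])
      rw [hm, one_pow]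
    · push Not at hf
      have hz := hfix b hf
      have e1 : orb ρ A (ρ b z) = {ρ b z} := by
        ext y
        rw [mem_orb, Finset.mem_singleton]
        constructor
        · rintro ⟨a, ha, rfl⟩
          exact hf a ha
        · rintro rfl
          exact ⟨1, A.one_mem, by simp⟩
      rw [e1, Finset.prod_singleton, hz, mul_inv_cancel]
  have h2 : ∏ x ∈ D, x = z ^ D.card := by
    have h3 : ∏ x ∈ D, x = (∏ x ∈ D, (x * z⁻¹)) * z ^ D.card := by
      rw [Finset.prod_mul_distrib, Finset.prod_const, inv_pow, inv_mul_cancel_right]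
    rw [h3, h1, one_mul]
  have h4 := prod_orb_fixed (ρ := ρ) z g
  rw [← hD, h2] at h4
  have hc : D.card.Coprime p := Nat.Coprime.coprime_dvd_left (card_orb_dvd hU) hUi
  exact fixed_of_pow hKp hc h4

/-- **Mode 2.** `z = w ^ p`, all primes. -/
theorem fix_pow [Finite K] [Finite Γ] [hp : Fact p.Prime] (hKp : IsPGroup p K) {w : K}
    (hfix : ∀ g : Γ, (∀ a ∈ A, ρ a (ρ g (w ^ p)) = ρ g (w ^ p)) → ρ g (w ^ p) = w ^ p)
    (hstab : ∀ x : K, (∃ a ∈ A, ρ a x ≠ x) → ∃ a ∈ A, ρ a x ≠ x ∧ ∀ b ∈ A, ρ b (x⁻¹ * ρ a x) = x⁻¹ * ρ a x)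
    (hpow : ∀ g : Γ, (ρ g (w ^ p)) ^ p = (w ^ p) ^ p) {U : Subgroup Γ} (hU : ∀ u ∈ U, ρ u w = w)
    (hUi : U.index.Coprime p) (g : Γ) : ρ g (w ^ p) = w ^ p := by
  classical
  have hp' := hp.out
  obtain ⟨z, hz⟩ : ∃ z, z = w ^ p := ⟨_, rfl⟩
  rw [← hz] at hfix hpow ⊢
  set D := orb ρ (⊤ : Subgroup Γ) w with hD
  have hDinv : ∀ a ∈ A, ∀ x ∈ D, ρ a x ∈ D := by
    intro a _ x hx
    obtain ⟨b, -, rfl⟩ := mem_orb.1 hx
    exact mem_orb.2 ⟨a * b, trivial, by rw [map_mul, MulAut.mul_apply]⟩
  have h1 : ∏ x ∈ D, (x ^ p * z⁻¹) = 1 := by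
    refine prod_invariant (A := A) (ρ := ρ) _ D hDinv ?_
    intro x hx
    obtain ⟨b, -, rfl⟩ := mem_orb.1 hx
    by_cases hf : ∃ a ∈ A, ρ a (ρ b w) ≠ ρ b w
    · obtain ⟨a, ha, hne, hfx⟩ := hstab _ hf
      obtain ⟨e, he, -, het⟩ := exists_translation hKp ha hne hfx
      have hep : e ^ p = 1 := by rw [← he]; exact pow_orderOf_eq_one e
      obtain ⟨m, -, hm⟩ := prod_of_translation he hp'.pos (fun y => y ^ p * z⁻¹) 1 _ het (by
        intro y hy
        obtain ⟨c, -, rfl⟩ := mem_orb.1 hy
        have hy2 : ((ρ c (ρ b w)) ^ p) ^ p = z ^ p := by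
          rw [← MulAut.mul_apply, ← map_mul, ← map_pow, ← hz]
          exact hpow _
        have e1 : ∀ i, (ρ c (ρ b w) * e ^ i) ^ p * z⁻¹ = (ρ c (ρ b w)) ^ p * z⁻¹ := by
          intro i
          rw [mul_pow, ← pow_mul, mul_comm i p, pow_mul, hep, one_pow, mul_one]
        simp only [e1]
        rw [Finset.prod_const, card_range, mul_pow, hy2, inv_pow, mul_inv_cancel])
      rw [hm, one_pow]
    · push Not at hf
      have hz1 : ρ b w ^ p = z := by
        have e0 : ρ b z = (ρ b w) ^ p := by rw [hz, map_pow]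
        rw [← e0]
        refine hfix b (fun a ha => ?_)
        rw [e0, map_pow, hf a ha]
      have e1 : orb ρ A (ρ b w) = {ρ b w} := by
        ext y
        rw [mem_orb, Finset.mem_singleton]
        constructor
        · rintro ⟨a, ha, rfl⟩
          exact hf a ha
        · rintro rfl
          exact ⟨1, A.one_mem, by simp⟩
      rw [e1, Finset.prod_singleton, hz1, mul_inv_cancel]
  have h2 : (∏ x ∈ D, x) ^ p = z ^ D.card := by
    have h3 : (∏ x ∈ D, x) ^ p = (∏ x ∈ D, (x ^ p * z⁻¹)) * z ^ D.card := by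
      rw [Finset.prod_mul_distrib, Finset.prod_const, inv_pow, inv_mul_cancel_right, Finset.prod_pow]
    rw [h3, h1, one_mul]
  have h4 := prod_orb_fixed (ρ := ρ) w g
  have h5 : ρ g (z ^ D.card) = z ^ D.card := by
    rw [← h2, map_pow, ← hD] at *
    rw [h4]
  have hc : D.card.Coprime p := Nat.Coprime.coprime_dvd_left (card_orb_dvd hU) hUi
  exact fixed_of_pow hKp hc h5

end action

end Cfsg.Agent.Lib.FusionTheory.OrbitProd
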