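import Cfsg.Agent.Lib.FusionTheory.Weak
import Cfsg.Agent.Lib.FusionTheory.Normal
import Cfsg.Agent.Lib.Core.SylowFacts

/-!
# `T C_S(T)` is strongly closed when `T` is
-/

set_option autoImplicit false

namespace Cfsg.Agent.Lib.FusionTheory.StrongClosure

open Cfsg Cfsg.FusionSystem Cfsg.Agent.Lib.Fusion.Basic Cfsg.Agent.Lib.Fusion.Saturation
open Cfsg.Agent.Lib.Fusion.Saturation2 Cfsg.Agent.Lib.Fusion.Alperin Cfsg.Agent.Lib.FusionTheory.Weak
open Cfsg.Agent.Lib.FusionTheory.Normal Cfsg.Agent.Lib.Core.SylowFacts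

/-- The Frattini argument with `T ∩ N`. -/
theorem frattini_inf {A : Type*} [Group A] [Finite A] {p : ℕ} [Fact p.Prime] (T' : Sylow p A) (N : Subgroup A)
    [N.Normal] (g : A) :
    ∃ n ∈ Subgroup.normalizer (((T' : Subgroup A) ⊓ N : Subgroup A) : Set A), ∃ k ∈ N, g = n * k := by
  have h := Sylow.normalizer_sup_eq_top (sylowOfNormal T' N)
  rw [map_sylowOfNormal] at h
  have hg : g ∈ Subgroup.normalizer (((T' : Subgroup A) ⊓ N : Subgroup A) : Set A) ⊔ N := by
    rw [h]
    trivial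
  obtain ⟨n, hn, k, hk, e⟩ := Subgroup.mem_sup_of_normal_right.1 hg
  exact ⟨n, hn, k, hk, e.symm⟩

variable {Ω : Type*} [Group Ω] {S : Subgroup Ω} (F : FusionSystem S) {p : ℕ}

/-- Elements of a product of commuting subgroups. -/
theorem mem_sup_of_commuting {T C : Subgroup Ω} (h : ∀ t ∈ T, ∀ c ∈ C, t * c = c * t) {x : Ω} :
    x ∈ T ⊔ C ↔ ∃ t ∈ T, ∃ c ∈ C, x = t * c := by
  constructor
  · intro hx
    let K : Subgroup Ω :=
      { carrier := {x | ∃ t ∈ T, ∃ c ∈ C, x = t * c}
        one_mem' := ⟨1, T.one_mem, 1, C.one_mem, by simp⟩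
        mul_mem' := by
          rintro _ _ ⟨t, ht, c, hc, rfl⟩ ⟨t', ht', c', hc', rfl⟩
          refine ⟨t * t', T.mul_mem ht ht', c * c', C.mul_mem hc hc', ?_⟩
          calc t * c * (t' * c') = t * (c * t') * c' := by group
            _ = t * (t' * c) * c' := by rw [h t' ht' c hc]
            _ = _ := by group
        inv_mem' := by
          rintro _ ⟨t, ht, c, hc, rfl⟩
          refine ⟨t⁻¹, T.inv_mem ht, c⁻¹, C.inv_mem hc, ?_⟩
          rw [mul_inv_rev]
          have := h t⁻¹ (T.inv_mem ht) c⁻¹ (C.inv_mem hc)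
          exact this.symm }
    have hle : T ⊔ C ≤ K := sup_le (fun t ht => ⟨t, ht, 1, C.one_mem, by simp⟩)
      (fun c hc => ⟨1, T.one_mem, c, hc, by simp⟩)
    exact hle hx
  · rintro ⟨t, ht, c, hc, rfl⟩
    exact Subgroup.mul_mem_sup ht hc

section main

variable {T : Subgroup Ω} (hT : F.StronglyClosed T)

include hT

omit hT in
theorem comm_T_C : ∀ t ∈ T, ∀ c ∈ centralizerIn S T, t * c = c * t := fun t ht _ hc =>
  (Subgroup.mem_centralizer_iff.1 hc.2 t ht)

/-- Conjugation by elements of `S` preserves `T C_S(T)`. -/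
theorem conj_mem_W {s x : Ω} (hs : s ∈ S) (hx : x ∈ T ⊔ centralizerIn S T) :
    s * x * s⁻¹ ∈ T ⊔ centralizerIn S T := by
  rw [mem_sup_of_commuting comm_T_C] at hx ⊢
  obtain ⟨t, ht, c, hc, rfl⟩ := hx
  refine ⟨s * t * s⁻¹, StronglyClosed.conj_mem F hT hs ht, s * c * s⁻¹, ⟨?_, ?_⟩, by group⟩
  · exact S.mul_mem (S.mul_mem hs hc.1) (S.inv_mem hs)
  · refine Subgroup.mem_centralizer_iff.2 (fun u hu => ?_)
    have h1 : s⁻¹ * u * s ∈ T := by
      have := StronglyClosed.conj_mem F hT (S.inv_mem hs) hu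
      simpa using this
    have h2 := Subgroup.mem_centralizer_iff.1 hc.2 _ h1
    calc u * (s * c * s⁻¹) = s * ((s⁻¹ * u * s) * c) * s⁻¹ := by group
      _ = s * (c * (s⁻¹ * u * s)) * s⁻¹ := by rw [h2]
      _ = _ := by group

/-- The subsystem of maps preserving membership in `T C_S(T)`. -/
def presSystem : FusionSystem S where
  Hom P := {φ | φ ∈ F.Hom P ∧ ∀ x : P, (x : Ω) ∈ T ⊔ centralizerIn S T ↔ φ x ∈ T ⊔ centralizerIn S T}
  le_of_mem h := F.le_of_mem h.1
  injective_of_mem h := F.injective_of_mem h.1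
  conj_mem := by
    intro P g hP hg
    refine ⟨F.conj_mem hP hg, fun x => ⟨fun h => conj_mem_W F hT hg h, fun h => ?_⟩⟩
    have := conj_mem_W F hT (S.inv_mem hg) h
    have e : g⁻¹ * (conjHom P g x) * g⁻¹⁻¹ = x := by
      show g⁻¹ * (g * x * g⁻¹) * g⁻¹⁻¹ = x
      group
    rwa [e] at this
  comp_mem := by
    rintro P Q φ ψ ⟨hφ, h1⟩ ⟨hψ, h2⟩ h
    exact ⟨F.comp_mem hφ hψ h, fun x => (h1 x).trans (h2 ⟨φ x, h x⟩)⟩
  inv_mem := by
    rintro P φ ⟨hφ, h1⟩
    obtain ⟨ψ, hψ, hψx⟩ := F.inv_mem hφ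
    refine ⟨ψ, ⟨hψ, ?_⟩, hψx⟩
    rintro ⟨_, x, rfl⟩
    rw [hψx]
    exact (h1 x).symm

/-- Direct argument when `T ≤ R`. -/
theorem aut_pres_of_le {R : Subgroup Ω} (hRS : R ≤ S) (hTR : T ≤ R) {α : MulAut R} (hα : α ∈ F.autGroup R)
    {x : R} (hx : (x : Ω) ∈ T ⊔ centralizerIn S T) : ((α x : R) : Ω) ∈ T ⊔ centralizerIn S T := by
  rw [mem_sup_of_commuting comm_T_C] at hx ⊢
  obtain ⟨t, ht, c, hc, hxe⟩ := hx
  have hcR : c ∈ R := by
    have : c = t⁻¹ * x := by rw [hxe]; group
    rw [this]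
    exact R.mul_mem (R.inv_mem (hTR ht)) x.2
  refine ⟨((α ⟨t, hTR ht⟩ : R) : Ω), StronglyClosed.aut_mem F hT hRS hα ht, ((α ⟨c, hcR⟩ : R) : Ω), ⟨?_, ?_⟩, ?_⟩
  · exact hRS (α ⟨c, hcR⟩).2
  · refine Subgroup.mem_centralizer_iff.2 (fun u hu => ?_)
    have h1 : ((α⁻¹ ⟨u, hTR hu⟩ : R) : Ω) ∈ T :=
      StronglyClosed.aut_mem F hT hRS (inv_mem hα) (x := ⟨u, hTR hu⟩) hu
    have h2 := Subgroup.mem_centralizer_iff.1 hc.2 _ h1
    have h3 : (α⁻¹ ⟨u, hTR hu⟩ : R) * ⟨c, hcR⟩ = ⟨c, hcR⟩ * (α⁻¹ ⟨u, hTR hu⟩ : R) := Subtype.ext h2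
    have h4 := congrArg (fun y => ((α y : R) : Ω)) h3
    simp only [map_mul, MulAut.apply_inv_self] at h4
    exact h4
  · have h5 : x = ⟨t, hTR ht⟩ * ⟨c, hcR⟩ := Subtype.ext hxe
    rw [h5, map_mul]
    rfl

variable [Finite S] [Fact p.Prime] (hS : IsPGroup p S) (hF : F.IsSaturated p)

include hS hF

/-- **S5255**. -/
theorem stronglyClosed_sup_centralizer : F.StronglyClosed (T ⊔ centralizerIn S T) := by
  have hTS : T ≤ S := hT.1
  have hle : ∀ P, F.Hom P ⊆ (presSystem F hT).Hom P := by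
    refine le_of_step F hS hF (presSystem F hT) ?_
    intro R hRn hbig α hα
    have hRS := hRn.1
    rw [← mem_autGroup_iff _ hRS]
    refine (mem_autGroup_iff _ hRS α).2 ⟨autHom_mem F hRS hα, ?_⟩
    -- it remains to see that `α` preserves membership
    by_cases hTR : T ≤ R
    · have key : ∀ β ∈ F.autGroup R, ∀ x : R, (x : Ω) ∈ T ⊔ centralizerIn S T →
          ((β x : R) : Ω) ∈ T ⊔ centralizerIn S T := fun β hβ x hx => aut_pres_of_le F hT hRS hTR hβ hx
      intro x
      refine ⟨key α hα x, fun h => ?_⟩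
      have := key α⁻¹ (inv_mem hα) (α x) h
      simpa using this
    · -- the normal subgroup `D`
      let D : Subgroup (MulAut R) :=
        { carrier := {γ | γ ∈ F.autGroup R ∧ ∀ x : R, (x : Ω)⁻¹ * ((γ x : R) : Ω) ∈ T}
          one_mem' := ⟨one_mem _, fun x => by simpa using T.one_mem⟩
          mul_mem' := by
            rintro a b ⟨ha, ha'⟩ ⟨hb, hb'⟩
            refine ⟨mul_mem ha hb, fun x => ?_⟩
            have h1 := T.mul_mem (hb' x) (ha' (b x))
            have e : (x : Ω)⁻¹ * ((b x : R) : Ω) * (((b x : R) : Ω)⁻¹ * ((a (b x) : R) : Ω)) =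
                (x : Ω)⁻¹ * (((a * b) x : R) : Ω) := by
              rw [MulAut.mul_apply]
              group
            rwa [e] at h1
          inv_mem' := by
            rintro a ⟨ha, ha'⟩
            refine ⟨inv_mem ha, fun x => ?_⟩
            have h1 := T.inv_mem (ha' (a⁻¹ x))
            rw [MulAut.apply_inv_self] at h1
            simpa using h1 }
      have hDF : ∀ γ ∈ D, γ ∈ F.autGroup R := fun γ hγ => hγ.1
      let N : Subgroup (F.autGroup R) := D.subgroupOf (F.autGroup R)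
      have hN : N.Normal := by
        constructor
        rintro k ⟨hk, hk'⟩ g
        refine ⟨(g * k * g⁻¹).2, fun x => ?_⟩
        -- `g k g⁻¹` moves `x` by an element of `T`
        have h1 := hk' ((g : MulAut R)⁻¹ x)
        have h2 := StronglyClosed.aut_mem F hT hRS g.2
          (x := (((g : MulAut R)⁻¹ x)⁻¹ * (k : MulAut R) ((g : MulAut R)⁻¹ x))) (by simpa using h1)
        have e : ((g : MulAut R) (((g : MulAut R)⁻¹ x)⁻¹ * (k : MulAut R) ((g : MulAut R)⁻¹ x)) : R) =
            x⁻¹ * ((g * k * g⁻¹ : F.autGroup R) : MulAut R) x := by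
          simp [MulAut.mul_apply]
        rw [e] at h2
        simpa using h2
      obtain ⟨-, T', hT'⟩ := isFullyAutomized_of_isFullyNormalized F hS hF hRn
      have hfinR : Finite R := finite_of_le hRS
      have hfinA : Finite (F.autGroup R) := inferInstance
      obtain ⟨n, hn, k, hk, e⟩ := frattini_inf T' N ⟨α, hα⟩
      have hαe : α = (n : MulAut R) * (k : MulAut R) := congrArg Subtype.val e
      -- `k` preserves membership
      have hkp : ∀ x : R, (x : Ω) ∈ T ⊔ centralizerIn S T ↔ (((k : MulAut R) x : R) : Ω) ∈ T ⊔ centralizerIn S T := by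
        intro x
        have h1 := hk.2 x
        have h2 : (x : Ω)⁻¹ * (((k : MulAut R) x : R) : Ω) ∈ T ⊔ centralizerIn S T :=
          Subgroup.mem_sup_left h1
        constructor
        · intro h
          have := Subgroup.mul_mem _ h h2
          simpa using this
        · intro h
          have := Subgroup.mul_mem _ h (Subgroup.inv_mem _ h2)
          simpa using this
      -- an element of `T` normalizing `R` outside `R`
      have hRlt : ∃ g ∈ T, g ∈ Subgroup.normalizer (R : Set Ω) ∧ g ∉ R := by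
        by_contra hcon
        push Not at hcon
        exact hTR (le_of_normalizer_le hS hTS (StronglyClosed.le_normalizer F hT) hRS hcon)
      obtain ⟨g, hgT, hgN, hgR⟩ := hRlt
      have hgS : g ∈ S := hTS hgT
      -- `c_g ∈ T' ⊓ N`
      have hcg : (⟨normAct R hgN, normAct_mem_autGroup F hRS hgS hgN⟩ : F.autGroup R) ∈
          ((T' : Subgroup (F.autGroup R)) ⊓ N : Subgroup (F.autGroup R)) := by
        refine ⟨?_, ?_⟩
        · rw [hT']
          exact normAct_mem_autInducedBy S R hgN hgS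
        · refine ⟨normAct_mem_autGroup F hRS hgS hgN, fun x => ?_⟩
          show (x : Ω)⁻¹ * (g * (x : Ω) * g⁻¹) ∈ T
          have h1 : (x : Ω)⁻¹ * g * (x : Ω) ∈ T := by
            have := StronglyClosed.conj_mem F hT (hRS (R.inv_mem x.2)) hgT
            simpa using this
          have h2 := T.mul_mem h1 (T.inv_mem hgT)
          have e3 : (x : Ω)⁻¹ * g * (x : Ω) * g⁻¹ = (x : Ω)⁻¹ * (g * (x : Ω) * g⁻¹) := by group
          rwa [e3] at h2
      have hnc := (Subgroup.mem_normalizer_iff.1 hn _).1 hcg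
      have hnc1 := hnc.1
      rw [hT'] at hnc1
      obtain ⟨h, hh, hhc⟩ := (mem_autInducedBy_iff S R _).1 hnc1
      have hgext : g ∈ extender S R (autHom (n : MulAut R)) := by
        refine mem_extender_of _ hgS hgN hh (fun x => ?_)
        have h3 : (((((n * ⟨normAct R hgN, normAct_mem_autGroup F hRS hgS hgN⟩ * n⁻¹ : F.autGroup R) : MulAut R)
            ((n : MulAut R) x)) : R) : Ω) = _ := hhc ((n : MulAut R) x)
        have key : (((n * ⟨normAct R hgN, normAct_mem_autGroup F hRS hgS hgN⟩ * n⁻¹ : F.autGroup R) : MulAut R)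
            ((n : MulAut R) x) : R) = (n : MulAut R) (normAct R hgN x) := by
          simp [MulAut.mul_apply]
        rw [key] at h3
        exact h3
      have hnF : autHom (n : MulAut R) ∈ F.Hom R := autHom_mem F hRS n.2
      have hY : R ⊔ Subgroup.zpowers g ≤ extender S R (autHom (n : MulAut R)) :=
        sup_le (le_extender F hnF) ((Subgroup.zpowers_le).2 hgext)
      have hRY : R ≤ R ⊔ Subgroup.zpowers g := le_sup_left
      obtain ⟨ψ, hψ, hψe⟩ := IsReceptive.exists_extension F (isReceptive_of_isFullyNormalized F hS hF hRn)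
        hnF (autHom_range _) hY hRY
      have hcard : Nat.card R < Nat.card ↥(R ⊔ Subgroup.zpowers g) := by
        by_contra hcon
        have hfinY : Finite ↥(R ⊔ Subgroup.zpowers g) :=
          finite_of_le ((hY.trans (extender_le_left _)))
        have heq := Subgroup.eq_of_le_of_card_ge hRY (not_lt.1 hcon)
        apply hgR
        rw [heq]
        exact Subgroup.mem_sup_right (Subgroup.mem_zpowers g)
      have hψp := (hbig _ hcard hψ).2
      have hnp : ∀ x : R, (x : Ω) ∈ T ⊔ centralizerIn S T ↔ (((n : MulAut R) x : R) : Ω) ∈ T ⊔ centralizerIn S T := by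
        intro x
        have h1 := hψp ⟨x, hRY x.2⟩
        rw [hψe x] at h1
        exact h1
      intro x
      rw [hαe]
      exact (hkp x).trans (hnp _)
  refine ⟨sup_le hTS (centralizerIn_le_left S T), fun R hR φ hφ x => ?_⟩
  exact ((hle R hφ).2 x).1 (hR x.2)

end main

end Cfsg.Agent.Lib.FusionTheory.StrongClosure
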